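import Mathlib

/-! # Squares of automorphisms of alternating groups are induced by permutations -/

set_option autoImplicit false
set_option linter.unusedSectionVars false

namespace Cfsg.Agent.AltAut

open Equiv Equiv.Perm Subgroup
open scoped Nat

variable {α : Type*} [Fintype α] [DecidableEq α]

theorem three_eq {x y : Perm α} (hx : x.IsThreeCycle) (hy : y.IsThreeCycle) {a : α} (ha : x a ≠ a)
    (h1 : x a = y a) (h2 : x (x a) = y (y a)) : x = y := by
  rw [hx.eq_swap_mul_swap_iff_mem_support.2 (mem_support.2 ha),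
    hy.eq_swap_mul_swap_iff_mem_support.2 (mem_support.2 (h1 ▸ ha)), h2, h1]

theorem cube {x : Perm α} (hx : x.IsThreeCycle) : x * x * x = 1 := by
  rw [← pow_three', ← hx.orderOf, pow_orderOf_eq_one]

theorem cube_apply {x : Perm α} (hx : x.IsThreeCycle) (a : α) : x (x (x a)) = a := by
  simpa using congrArg (fun g : Perm α => g a) (cube hx)

theorem exists_arrow {x y : Perm α} (hx : x.IsThreeCycle) (hy : y.IsThreeCycle)
    (h1 : x * y * (x * y) = 1) (h2 : x * y ≠ 1) : ∃ a, x a = y a ∧ x a ≠ a := by
  have h3 : x⁻¹ * y = y * x * y⁻¹ := by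
    have e1 : x⁻¹ = y * x * y := by
      rw [inv_eq_iff_mul_eq_one, ← h1]; group
    have e2 : y⁻¹ = y * y := by rw [inv_eq_iff_mul_eq_one, ← cube hy]; group
    rw [e1, e2]; group
  have h4 : (x⁻¹ * y).support.card = 3 := by rw [h3, card_support_conj, hx.card_support]
  by_cases hs : x.support = y.support
  · by_contra hn
    push Not at hn
    refine h2 (Equiv.ext fun a => ?_)
    by_cases ha : a ∈ x.support
    · have h5 : y a ∈ x.support := by rw [hs, apply_mem_support, ← hs]; exact ha
      rw [hx.support_eq_iff_mem_support.2 ha] at h5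
      simp only [Finset.mem_insert, Finset.mem_singleton] at h5
      rcases h5 with h5 | h5 | h5
      · exact absurd h5 (mem_support.1 (hs ▸ ha))
      · exact absurd (hn a h5.symm) (mem_support.1 ha)
      · simp [h5, cube_apply hx]
    · have h5 : y a = a := notMem_support.1 (hs ▸ ha)
      simp [h5, notMem_support.1 ha]
  · have h5 : (x⁻¹ * y).support.card < (x.support ∪ y.support).card := by
      rw [h4]
      by_contra h6
      have e1 := Finset.eq_of_subset_of_card_le (Finset.subset_union_left (s₁ := x.support)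
        (s₂ := y.support)) (by rw [hx.card_support]; omega)
      have e2 := Finset.eq_of_subset_of_card_le (Finset.subset_union_right (s₁ := x.support)
        (s₂ := y.support)) (by rw [hy.card_support]; omega)
      exact hs (e1.trans e2.symm)
    obtain ⟨a, ha, ha'⟩ := Finset.exists_mem_notMem_of_card_lt_card h5
    have h6 : x a = y a := by
      have := notMem_support.1 ha'
      rw [mul_apply, inv_eq_iff_eq] at this
      exact this.symm
    refine ⟨a, h6, ?_⟩
    rcases Finset.mem_union.1 ha with h | h
    · exact mem_support.1 h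
    · exact h6 ▸ mem_support.1 h

theorem mem_three {x : Perm α} (hx : x.IsThreeCycle) {a b : α} (ha : x a ≠ a) (hb : x b ≠ b) :
    b = a ∨ b = x a ∨ b = x (x a) := by
  have := mem_support.2 hb
  rw [hx.support_eq_iff_mem_support.2 (mem_support.2 ha)] at this
  simpa using this

theorem common_arrow {x y z : Perm α} (hx : x.IsThreeCycle) (hy : y.IsThreeCycle)
    (hz : z.IsThreeCycle) (hxy : x ≠ y) {a : α} (ha : x a ≠ a) (h1 : x a = y a)
    (h2 : ∃ b, x b = z b ∧ x b ≠ b) (h3 : ∃ c, y c = z c ∧ y c ≠ c) : z a = x a := by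
  obtain ⟨b, hb, hb'⟩ := h2
  obtain ⟨c, hc, hc'⟩ := h3
  have hne : x (x a) ≠ y (y a) := fun h => hxy (three_eq hx hy ha h1 h)
  have ha' : y a ≠ a := h1 ▸ ha
  rcases mem_three hx ha hb' with rfl | rfl | rfl
  · exact hb.symm
  · rcases mem_three hy ha' hc' with rfl | rfl | rfl
    · exact hc.symm.trans h1.symm
    · exact absurd (hb.trans (by rw [h1, ← hc])) hne
    · rcases mem_three hz (hb ▸ hb') (hc ▸ hc') with h | h | h
      · exact absurd (y.injective (h.trans h1)) ha'
      · exact absurd (hb.trans h.symm) hne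
      · rw [cube_apply hy, h, cube_apply hz] at hc
        exact absurd hc.symm ha
  · rcases mem_three hy ha' hc' with rfl | rfl | rfl
    · exact hc.symm.trans h1.symm
    · rcases mem_three hz (hc ▸ hc') (hb ▸ hb') with h | h | h
      · exact absurd (x.injective (h.trans h1.symm)) ha
      · exact absurd (h.trans hc.symm) hne
      · rw [cube_apply hx, h, cube_apply hz] at hb
        exact absurd hb.symm ha'
    · rw [cube_apply hx] at hb
      rw [cube_apply hy] at hc
      exact absurd (z.injective (hb.symm.trans hc)) hne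

theorem isThreeCycle_sw {u v i : α} (huv : u ≠ v) (hu : i ≠ u) (hv : i ≠ v) :
    (swap u v * swap v i).IsThreeCycle := by
  rw [swap_comm u v]
  exact isThreeCycle_swap_mul_swap_same huv.symm hv.symm hu.symm

theorem alt_le_of_sw {u v : α} (huv : u ≠ v) {E : Subgroup (Perm α)}
    (h : ∀ i, i ≠ u → i ≠ v → swap u v * swap v i ∈ E) : alternatingGroup α ≤ E := by
  have h1 : ∀ i, i ≠ v → swap u v * swap v i ∈ E := by
    intro i hi
    by_cases hu : i = u
    · rw [hu, swap_comm v u, swap_mul_self]; exact E.one_mem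
    · exact h i hu hi
  have h2 : ∀ i j, i ≠ j → swap u v * swap i j ∈ E := by
    intro i j hij
    by_cases hi : i = v
    · rw [hi]; exact h1 j (hi ▸ hij.symm)
    by_cases hj : j = v
    · rw [hj, swap_comm i v]; exact h1 i hi
    have e : swap i j = swap v i * swap v j * swap v i := by
      rw [swap_comm v i, swap_comm v j, swap_comm i v, swap_mul_swap_mul_swap hj hij.symm]
    have e2 : swap u v * swap i j =
        swap u v * swap v i * (swap u v * swap v j)⁻¹ * (swap u v * swap v i) := by
      rw [e, mul_inv_rev, swap_inv, swap_inv]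
      simp only [mul_assoc, swap_mul_self_mul]
    rw [e2]
    exact E.mul_mem (E.mul_mem (h1 i hi) (E.inv_mem (h1 j hj))) (h1 i hi)
  have key : ∀ g : Perm α, (sign g = 1 → g ∈ E) ∧ (sign g = -1 → swap u v * g ∈ E) := by
    intro g
    induction g using swap_induction_on with
    | one => exact ⟨fun _ => E.one_mem, fun h => absurd h (by simp)⟩
    | swap_mul f x y hxy ih =>
      rw [Perm.sign_mul, sign_swap hxy]
      constructor
      · intro hs
        have e : swap x y * f = (swap u v * swap x y)⁻¹ * (swap u v * f) := by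
          rw [mul_inv_rev, swap_inv, swap_inv]
          simp only [mul_assoc, swap_mul_self_mul]
        rw [e]
        exact E.mul_mem (E.inv_mem (h2 x y hxy)) (ih.2 (by
          rw [neg_one_mul, neg_eq_iff_eq_neg] at hs; exact hs))
      · intro hs
        rw [← mul_assoc]
        exact E.mul_mem (h2 x y hxy) (ih.1 (by simpa using hs))
  exact fun g hg => (key g).1 (mem_alternatingGroup.1 hg)

theorem exists_conj_of_three (h4 : 4 ≤ Fintype.card α) (β : MulAut (alternatingGroup α))
    (hβ : ∀ g : alternatingGroup α, (g : Perm α).IsThreeCycle → (β g : Perm α).IsThreeCycle) :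
    ∃ σ : Perm α, MulAut.conjNormal σ = β := by
  obtain ⟨f⟩ : Nonempty (Fin 4 ↪ α) := Function.Embedding.nonempty_of_card_le (by simpa using h4)
  have huv : f 0 ≠ f 1 := f.injective.ne (by decide)
  set u := f 0
  set v := f 1
  let x : ∀ i, i ≠ u → i ≠ v → alternatingGroup α := fun i hu hv =>
    ⟨_, (isThreeCycle_sw huv hu hv).mem_alternatingGroup⟩
  have hy : ∀ i hu hv, (β (x i hu hv) : Perm α).IsThreeCycle := fun i hu hv =>
    hβ _ (isThreeCycle_sw huv hu hv)
  have hne : ∀ i hu hv j hu' hv', i ≠ j → (β (x i hu hv) : Perm α) ≠ β (x j hu' hv') := by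
    intro i hu hv j hu' hv' hij e
    have := congrArg (fun g : alternatingGroup α => (g : Perm α) v) (β.injective (Subtype.ext e))
    simp only [x, mul_apply, swap_apply_left] at this
    exact hij ((swap u v).injective this)
  have harr : ∀ i hu hv j hu' hv', i ≠ j →
      ∃ a, (β (x i hu hv) : Perm α) a = (β (x j hu' hv') : Perm α) a ∧
        (β (x i hu hv) : Perm α) a ≠ a := by
    intro i hu hv j hu' hv' hij
    have e : ((x i hu hv * x j hu' hv' : alternatingGroup α) : Perm α) = swap u i * swap v j := by
      simp only [x, Subgroup.coe_mul]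
      rw [← mul_assoc, swap_comm v i, swap_comm u v, swap_mul_swap_mul_swap hv hu]
    have e1 : x i hu hv * x j hu' hv' * (x i hu hv * x j hu' hv') = 1 := Subtype.ext (by
      rw [Subgroup.coe_mul, e, mul_assoc, ← mul_assoc (swap v j),
        ← ((disjoint_swap_swap (by simp [huv, hu.symm, hu'.symm, hv, hij, hv'.symm])).commute :
          Commute (swap u i) (swap v j)).eq]
      simp [mul_assoc])
    have e2 : x i hu hv * x j hu' hv' ≠ 1 := fun h => by
      have := congrArg (fun g : alternatingGroup α => (g : Perm α) u) h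
      simp only [e, mul_apply, swap_apply_of_ne_of_ne huv hu'.symm, swap_apply_left,
        OneMemClass.coe_one, one_apply] at this
      exact hu this
    refine exists_arrow (hy i hu hv) (hy j hu' hv') ?_ ?_
    · rw [← Subgroup.coe_mul, ← Subgroup.coe_mul, ← map_mul, ← map_mul, e1, map_one, OneMemClass.coe_one]
    · rw [← Subgroup.coe_mul, ← map_mul]
      exact fun h => e2 (β.injective (by rw [map_one]; exact Subtype.ext h))
  have h2u : f 2 ≠ u := f.injective.ne (by decide)
  have h2v : f 2 ≠ v := f.injective.ne (by decide)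
  have h3u : f 3 ≠ u := f.injective.ne (by decide)
  have h3v : f 3 ≠ v := f.injective.ne (by decide)
  have h23 : f 2 ≠ f 3 := f.injective.ne (by decide)
  obtain ⟨a, ha, ha'⟩ := harr _ h2u h2v _ h3u h3v h23
  set b := (β (x _ h2u h2v) : Perm α) a with hb
  have hall : ∀ i hu hv, (β (x i hu hv) : Perm α) a = b := by
    intro i hu hv
    by_cases e2 : f 2 = i
    · subst e2; rfl
    by_cases e3 : f 3 = i
    · subst e3; exact ha.symm
    exact common_arrow (hy _ h2u h2v) (hy _ h3u h3v) (hy i hu hv) (hne _ h2u h2v _ h3u h3v h23) ha' ha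
      (harr _ h2u h2v _ hu hv e2) (harr _ h3u h3v _ hu hv e3)
  have hnd : ∀ i hu hv, (β (x i hu hv) : Perm α) b ≠ a ∧ (β (x i hu hv) : Perm α) b ≠ b := by
    intro i hu hv
    have := (hy i hu hv).nodup_iff_mem_support.2 (mem_support.2 (hall i hu hv ▸ ha'))
    rw [hall i hu hv] at this
    simp only [List.nodup_cons, List.mem_cons, List.not_mem_nil, or_false, not_or] at this
    exact ⟨Ne.symm this.1.2, Ne.symm this.2.1⟩
  let s : α → α := fun i =>
    if hu : i = u then a else if hv : i = v then b else (β (x i hu hv) : Perm α) b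
  have su : s u = a := dif_pos rfl
  have sv : s v = b := by simp [s, huv.symm]
  have si : ∀ i hu hv, s i = (β (x i hu hv) : Perm α) b := fun i hu hv => by simp [s, hu, hv]
  have hs : Function.Injective s := by
    have h1 : ∀ i, s i = a → i = u := by
      intro i hi
      by_contra hu
      by_cases hv : i = v
      · rw [hv, sv] at hi; exact ha' hi
      · exact (hnd i hu hv).1 (si i hu hv ▸ hi)
    have h2 : ∀ i, s i = b → i = v := by
      intro i hi
      by_contra hv
      by_cases hu : i = u
      · rw [hu, su] at hi; exact ha' hi.symm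
      · exact (hnd i hu hv).2 (si i hu hv ▸ hi)
    intro i j hij
    by_cases hu : i = u
    · rw [hu, su] at hij; rw [hu, h1 j hij.symm]
    by_cases hv : i = v
    · rw [hv, sv] at hij; rw [hv, h2 j hij.symm]
    by_cases hu' : j = u
    · rw [hu', su] at hij; exact absurd (h1 i hij) hu
    by_cases hv' : j = v
    · rw [hv', sv] at hij; exact absurd (h2 i hij) hv
    by_contra hn
    rw [si i hu hv, si j hu' hv'] at hij
    exact hne _ hu hv _ hu' hv' hn (three_eq (hy _ hu hv) (hy _ hu' hv') (a := a)
      (hall i hu hv ▸ ha') (by rw [hall i hu hv, hall j hu' hv'])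
      (by rw [hall i hu hv, hall j hu' hv', hij]))
  let σ : Perm α := Equiv.ofBijective s (Finite.injective_iff_bijective.1 hs)
  refine ⟨σ, ?_⟩
  let E : Subgroup (alternatingGroup α) :=
    MonoidHom.eqLocus (MulAut.conjNormal σ).toMonoidHom β.toMonoidHom
  have hE := alt_le_of_sw huv (E := E.map (alternatingGroup α).subtype) fun i hu hv =>
    ⟨x i hu hv, Subtype.ext (by
      change σ * (swap u v * swap v i) * σ⁻¹ = (β (x i hu hv) : Perm α)
      rw [(hy i hu hv).eq_swap_mul_swap_iff_mem_support.2 (mem_support.2 (hall i hu hv ▸ ha')),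
        hall i hu hv, ← si i hu hv, ← su]
      conv_rhs => rw [← sv]
      change _ = swap (σ u) (σ v) * swap (σ v) (σ i)
      rw [swap_apply_apply, swap_apply_apply]
      group), rfl⟩
  ext1 g
  obtain ⟨g', hg', e⟩ := hE g.2
  obtain rfl : g' = g := Subtype.ext e
  exact hg'

theorem isConj_of_not_le {σ τ : alternatingGroup α} (hc : IsConj (σ : Perm α) (τ : Perm α))
    (h : ¬ centralizer {(σ : Perm α)} ≤ alternatingGroup α) : IsConj σ τ := by
  obtain ⟨π, hπ⟩ := isConj_iff.1 hc
  by_cases h1 : π ∈ alternatingGroup α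
  · exact isConj_iff.2 ⟨⟨π, h1⟩, Subtype.ext hπ⟩
  obtain ⟨c, hc1, hc2⟩ := SetLike.not_le_iff_exists.1 h
  rw [mem_centralizer_singleton_iff] at hc1
  have h2 : π * c ∈ alternatingGroup α := by
    rw [mem_alternatingGroup] at h1 hc2 ⊢
    rw [Perm.sign_mul, Int.units_ne_iff_eq_neg.1 h1, Int.units_ne_iff_eq_neg.1 hc2]
    simp
  refine isConj_iff.2 ⟨⟨π * c, h2⟩, Subtype.ext ?_⟩
  change π * c * σ * (π * c)⁻¹ = τ
  rw [← hπ, mul_assoc π, hc1]
  group

theorem fact_ineq {k : ℕ} (hk : 3 ≤ k) : 2 * (3 ^ k * k !) < 3 * (3 * k - 3)! := by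
  induction k, hk using Nat.le_induction with
  | base => decide
  | succ k hk ih =>
    obtain ⟨m, rfl⟩ : ∃ m, k = m + 1 := ⟨k - 1, by omega⟩
    rw [show 3 * (m + 1) - 3 = 3 * m by omega] at ih
    rw [show 3 * (m + 1 + 1) - 3 = 3 * m + 1 + 1 + 1 by omega, Nat.factorial_succ (m + 1),
      Nat.factorial_succ (3 * m + 1 + 1), Nat.factorial_succ (3 * m + 1), Nat.factorial_succ (3 * m),
      pow_succ 3 (m + 1)]
    have h1 : 3 * (m + 1 + 1) ≤ (3 * m + 1 + 1 + 1) * ((3 * m + 1 + 1) * (3 * m + 1)) := by
      obtain ⟨l, rfl⟩ : ∃ l, m = l + 2 := ⟨m - 2, by omega⟩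
      nlinarith [Nat.zero_le (l * l), Nat.zero_le (l * l * l)]
    calc 2 * (3 ^ (m + 1) * 3 * ((m + 1 + 1) * (m + 1)!))
        = 3 * (m + 1 + 1) * (2 * (3 ^ (m + 1) * (m + 1)!)) := by ring
      _ < 3 * (m + 1 + 1) * (3 * (3 * m)!) := Nat.mul_lt_mul_of_pos_left ih (by omega)
      _ ≤ (3 * m + 1 + 1 + 1) * ((3 * m + 1 + 1) * (3 * m + 1)) * (3 * (3 * m)!) :=
        Nat.mul_le_mul_right _ h1
      _ = _ := by ring

theorem card_cent (g : alternatingGroup α) :
    Nat.card (centralizer {g}) ≤ Nat.card (centralizer {(g : Perm α)}) ∧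
    Nat.card (centralizer {(g : Perm α)}) ≤ 2 * Nat.card (centralizer {g}) := by
  have e : (centralizer {g}).map (alternatingGroup α).subtype =
      alternatingGroup α ⊓ centralizer {(g : Perm α)} := by
    ext y
    simp only [mem_map, mem_centralizer_singleton_iff, mem_inf, coe_subtype]
    constructor
    · rintro ⟨z, hz, rfl⟩
      exact ⟨z.2, congrArg Subtype.val hz⟩
    · rintro ⟨h1, h2⟩
      exact ⟨⟨y, h1⟩, Subtype.ext h2, rfl⟩
  rw [← card_map_of_injective (alternatingGroup α).subtype_injective, e]
  refine ⟨card_le_of_le inf_le_right, ?_⟩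
  have h1 := (alternatingGroup α).subgroupOf (centralizer {(g : Perm α)}) |>.card_mul_index
  rw [← inf_subgroupOf_right, Nat.card_congr (subgroupOfEquivOfLe inf_le_right).toEquiv,
    inf_subgroupOf_right] at h1
  rw [← h1, mul_comm]
  refine Nat.mul_le_mul_right _ (Nat.le_of_dvd two_pos ?_)
  refine (relIndex_dvd_index_of_normal _ _).trans ?_
  rcases subsingleton_or_nontrivial α with h | h
  · rw [alternatingGroup.index_eq_one]; exact one_dvd _
  · rw [alternatingGroup.index_eq_two]

theorem type_of_card {g c : alternatingGroup α} (hc : (c : Perm α).IsThreeCycle)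
    (hg : orderOf g = 3) (h : Nat.card (centralizer {c}) = Nat.card (centralizer {g})) :
    (g : Perm α).IsThreeCycle ∨ (g : Perm α).cycleType = {3, 3} := by
  obtain ⟨k, hk⟩ := cycleType_prime_order (σ := (g : Perm α))
    (by rw [orderOf_coe, hg]; exact Nat.prime_three)
  rw [orderOf_coe, hg] at hk
  rcases k with _ | _ | k
  · exact Or.inl hk
  · exact Or.inr hk
  exfalso
  have h1 := (card_cent g).1
  have h2 := (card_cent c).2
  have h3 := (g : Perm α).sum_cycleType_le
  rw [nat_card_centralizer, hk] at h1
  rw [nat_card_centralizer, hc.cycleType, h] at h2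
  rw [hk] at h3
  simp only [Multiset.sum_replicate, smul_eq_mul, Multiset.prod_replicate,
    Multiset.toFinset_replicate, Nat.add_eq_zero_iff, one_ne_zero, and_false, if_false,
    Finset.prod_singleton, Multiset.count_replicate_self, Multiset.sum_singleton,
    Multiset.prod_singleton, Multiset.toFinset_singleton, Multiset.count_singleton_self,
    Nat.factorial_one, mul_one] at h1 h2 h3
  set m := k + 1 + 1 + 1
  have h4 := fact_ineq (k := m) (by omega)
  have h5 := Nat.le_of_dvd (Nat.factorial_pos _)
    (Nat.factorial_mul_factorial_dvd_factorial_add (Fintype.card α - m * 3) (3 * m - 3))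
  rw [show Fintype.card α - m * 3 + (3 * m - 3) = Fintype.card α - 3 by omega] at h5
  have h6 := Nat.mul_lt_mul_of_pos_left h4 (Nat.factorial_pos (Fintype.card α - m * 3))
  nlinarith

theorem card_cent_aut {G : Type*} [Group G] (β : MulAut G) (g : G) :
    Nat.card (centralizer {g}) = Nat.card (centralizer {β g}) := by
  rw [← card_map_of_injective (f := β.toMonoidHom) β.injective]
  congr 2
  ext y
  simp only [mem_map, mem_centralizer_singleton_iff, MulEquiv.coe_toMonoidHom]
  constructor
  · rintro ⟨z, hz, rfl⟩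
    rw [← map_mul, ← map_mul, hz]
  · intro h
    exact ⟨β.symm y, β.injective (by simpa using h), by simp⟩

theorem three_sq (h5 : 5 ≤ Fintype.card α) (β : MulAut (alternatingGroup α))
    (g : alternatingGroup α) (hg : (g : Perm α).IsThreeCycle) :
    ((β * β) g : Perm α).IsThreeCycle := by
  have h5' : 5 ≤ Nat.card α := by rwa [Nat.card_eq_fintype_card]
  have ho : orderOf g = 3 := by rw [← orderOf_coe, hg.orderOf]
  have ho1 : orderOf (β g) = 3 := by rw [MulEquiv.orderOf_eq, ho]
  have ho2 : orderOf (β (β g)) = 3 := by rw [MulEquiv.orderOf_eq, ho1]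
  have conj3 : ∀ {a b : alternatingGroup α}, IsConj a b → (a : Perm α).IsThreeCycle →
      (b : Perm α).IsThreeCycle := fun h h' => by
    exact (isConj_iff_cycleType_eq.1 ((alternatingGroup α).subtype.map_isConj h)).symm.trans h'
  rw [MulAut.mul_apply]
  rcases type_of_card hg ho1 (card_cent_aut β g) with h1 | h1
  · exact conj3 (β.toMonoidHom.map_isConj (alternatingGroup.isThreeCycle_isConj h5' hg h1)) h1
  refine (type_of_card hg ho2 ((card_cent_aut β g).trans (card_cent_aut β _))).resolve_right
    fun h2 => ?_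
  have h3 := isConj_of_not_le (isConj_iff_cycleType_eq.2 (h1.trans h2.symm)) fun h => by
    have := count_le_one_of_centralizer_le_alternating h 3
    rw [h1] at this
    simp at this
  have h4 : IsConj g (β g) := by simpa using β.symm.toMonoidHom.map_isConj h3
  have := (conj3 h4 hg).cycleType
  rw [h1] at this
  exact absurd this (by decide)

/-- automorphisms of odd order of `A_n`, `n ≥ 5`, are induced by permutations -/
theorem exists_conj_of_odd (h5 : 5 ≤ Fintype.card α) (β : MulAut (alternatingGroup α))
    (hβ : Odd (orderOf β)) : ∃ σ : Perm α, MulAut.conjNormal σ = β := by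
  obtain ⟨m, hm⟩ := hβ
  have e : β = β ^ (m + 1) * β ^ (m + 1) := by
    rw [← pow_add, show m + 1 + (m + 1) = orderOf β + 1 by omega, pow_succ, pow_orderOf_eq_one,
      one_mul]
  exact exists_conj_of_three (by omega) β fun g hg => e ▸ three_sq h5 _ g hg

theorem conjNormal_injective (h4 : 4 ≤ Fintype.card α) :
    Function.Injective (MulAut.conjNormal : Perm α →* MulAut (alternatingGroup α)) := by
  rw [injective_iff_map_eq_one]
  intro σ hσ
  ext a
  by_contra ha
  rw [one_apply] at ha
  have h1 : 1 < ({a, σ a}ᶜ : Finset α).card := by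
    rw [Finset.card_compl]
    have := Finset.card_le_two (a := a) (b := σ a)
    omega
  obtain ⟨b, hb, c, hc, hbc⟩ := Finset.one_lt_card.1 h1
  simp only [Finset.mem_compl, Finset.mem_insert, Finset.mem_singleton, not_or] at hb hc
  have h3 := isThreeCycle_sw (Ne.symm hb.1) hc.1 hbc.symm
  have := congrArg (fun β : MulAut (alternatingGroup α) =>
    (β ⟨_, h3.mem_alternatingGroup⟩ : Perm α) (σ a)) hσ
  simp only [MulAut.conjNormal_apply, mul_apply, Perm.inv_def, symm_apply_apply, MulAut.one_apply,
    swap_apply_of_ne_of_ne (Ne.symm hb.1) (Ne.symm hc.1), swap_apply_left,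
    swap_apply_of_ne_of_ne (Ne.symm hb.2) (Ne.symm hc.2),
    swap_apply_of_ne_of_ne ha (Ne.symm hb.2)] at this
  exact hb.1 (σ.injective this)

end Cfsg.Agent.AltAut
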