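import Mathlib
import Cfsg.Agent.Lib.PGrp.Basic
import Cfsg.Agent.Lib.Perm.Swaps
import Cfsg.Agent.Lib.Transfer.SylowIn

/-!
Multiply transitive groups of degree `k p + r` (Jordan, Miller), and Jordan's theorem on
primitive groups containing a cycle of prime length.
-/

set_option autoImplicit false

namespace Cfsg.Agent.Perm

open Equiv Equiv.Perm Subgroup MulAction
open scoped Pointwise

theorem exists_mul_ne_mul {β : Type*} [Fintype β] (h : 3 ≤ Fintype.card β) {s : Perm β}
    (hs : s ≠ 1) : ∃ t, s * t ≠ t * s := by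
  classical
  obtain ⟨a, ha⟩ : ∃ a, s a ≠ a := by
    by_contra h1
    push Not at h1
    exact hs (Equiv.ext h1)
  obtain ⟨c, -, hc⟩ := Finset.exists_mem_notMem_of_card_lt_card (s := {a, s a}) (t := Finset.univ)
    (Finset.card_le_two.trans_lt h)
  simp only [Finset.mem_insert, Finset.mem_singleton, not_or] at hc
  refine ⟨swap (s a) c, fun h1 => hc.2 ?_⟩
  simpa [swap_apply_of_ne_of_ne ha.symm (Ne.symm hc.1), eq_comm] using congrArg (· a) h1

theorem smul_eq_of_zpow_smul_eq {N α : Type*} [Group N] [MulAction N α] {p : ℕ} (hp : p.Prime)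
    {y : N} (hy : y ^ p = 1) {a : α} {j : ℤ} (hj : ¬ (p : ℤ) ∣ j) (h : y ^ j • a = a) :
    y • a = a := by
  obtain ⟨u, v, huv⟩ := (Nat.prime_iff_prime_int.1 hp).irreducible.coprime_iff_not_dvd.2 hj
  have := (stabilizer N a).zpow_mem h v
  rwa [← zpow_mul, mul_comm, eq_sub_of_add_eq' huv, zpow_sub, mul_comm u, zpow_mul, zpow_natCast,
    hy, one_zpow, inv_one, mul_one, zpow_one] at this

/-- The core of the Jordan–Miller argument: `P` is a normal `p`-subgroup of `N` moving `k p`
points, and `N` induces the full symmetric group on the set `F` of fixed points of `P`. -/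
theorem exists_fix_compl {N α : Type*} [Group N] [Finite N] [MulAction N α] [Fintype α]
    [DecidableEq α] {p k : ℕ} (hp : p.Prime) {P : Subgroup N} [P.Normal] (hP : IsPGroup p P)
    {F : Finset α} (hF : ∀ a, a ∈ F ↔ ∀ x ∈ P, x • a = a) (res : N →* Perm F)
    (hres : ∀ g (a : F), (res g a : α) = g • (a : α)) (hsurj : Function.Surjective res)
    (hcard : Fintype.card α = k * p + F.card) (hk1 : 1 ≤ k) (hk : k < p) (hkr : k < F.card)
    (hr : 3 ≤ F.card) (hp2 : p ≠ 2) (h3 : ¬ (p = 3 ∧ F.card = 3))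
    (hcyc : k = 1 ∨ ∀ x ∈ P, (Finset.univ.filter fun a : α => x • a ≠ a).card ≠ p) :
    ∃ w : N, w ≠ 1 ∧ ∀ a ∉ F, w • a = a := by
  classical
  have := Fact.mk hp
  by_contra hW
  replace hW : ∀ u v : N, (∀ a ∉ F, u • a = v • a) → u = v := fun u v h => by
    by_contra huv
    exact hW ⟨v⁻¹ * u, fun h1 => huv (inv_mul_eq_one.1 h1).symm, fun a ha => by
      rw [mul_smul, h a ha, inv_smul_smul]⟩
  have hFc : Fᶜ.card = k * p := by rw [Finset.card_compl, hcard, Nat.add_sub_cancel]
  have hF' : ∀ (g : N), ∀ a ∉ F, g • a ∉ F := fun g a ha h => ha (by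
    have := (res g⁻¹ ⟨_, h⟩).2
    rwa [hres, inv_smul_smul] at this)
  have hK : ∀ a ∉ F, (stabilizer P a).index = p := fun a ha => by
    obtain ⟨n, hn⟩ := hP.index (stabilizer P a)
    have h1 : (stabilizer P a).index ≤ k * p := by
      rw [index_stabilizer, ← hFc, ← Set.ncard_coe_finset]
      refine Set.ncard_le_ncard ?_
      rintro _ ⟨x, rfl⟩
      simpa using! hF' x a ha
    have h2 : n < 2 := (Nat.pow_lt_pow_iff_right hp.one_lt).1 (by
      have := hp.pos
      nlinarith)
    interval_cases n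
    · exact (ha ((hF a).2 fun x hx => (index_eq_one.1 hn ▸ mem_top (⟨x, hx⟩ : P) :
        (⟨x, hx⟩ : P) ∈ stabilizer P a))).elim
    · simpa using hn
  have hKn := fun a ha => PGrp.normal_of_index_eq hP (hK a ha)
  have hcomm : ∀ x ∈ P, ∀ y ∈ P, x * y = y * x := fun x hx y hy => hW _ _ fun a ha => by
    have := hKn a ha
    have := isCyclic_of_prime_card (hK a ha)
    have h1 := QuotientGroup.eq.1 (IsCyclic.isMulCommutative.is_comm.comm
      ((⟨x, hx⟩ : P) : P ⧸ stabilizer P a) ((⟨y, hy⟩ : P) : P ⧸ stabilizer P a))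
    rw [mem_stabilizer_iff, mul_smul, inv_smul_eq_iff] at h1
    exact h1.symm
  have hexp : ∀ x ∈ P, x ^ p = 1 := fun x hx => hW _ _ fun a ha => by
    have := hKn a ha
    have h1 := pow_index_mem (H := stabilizer P a) ⟨x, hx⟩
    rw [hK a ha] at h1
    exact h1.trans (one_smul _ _).symm
  have hfix : ∀ x ∈ P, ∀ y ∈ P, ∀ a : α, x • a = a → x • y • a = y • a := fun x hx y hy a h => by
    rw [← mul_smul, hcomm x hx y hy, mul_smul, h]
  let Q : SubMulAction N (Set α) := ⟨{s | ∃ a ∉ F, s = orbit P a}, by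
    rintro g _ ⟨a, ha, rfl⟩
    exact ⟨g • a, hF' g a ha, smul_orbit_eq_orbit_smul P a g⟩⟩
  have hQ : ∀ S : Finset (Set α), (∀ s ∈ S, s ∈ Q) → S.card ≤ k := fun S hS => by
    refine Nat.le_of_mul_le_mul_left (c := p) ?_ hp.pos
    rw [mul_comm p k, ← hFc]
    refine (Nat.mul_le_mul_left _ (Finset.card_le_card (t := Fᶜ.image (orbit P)) fun s hs => ?_)).trans
      (Finset.mul_card_image_le_card _ _ fun s hs => ?_)
    · obtain ⟨a, ha, rfl⟩ := hS s hs
      exact Finset.mem_image_of_mem _ (Finset.mem_compl.2 ha)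
    · obtain ⟨a, ha, rfl⟩ := Finset.mem_image.1 hs
      rw [Finset.mem_compl] at ha
      rw [← hK a ha, index_stabilizer, ← Set.ncard_coe_finset]
      refine Set.ncard_le_ncard ?_
      rintro _ ⟨x, rfl⟩
      simpa using! hF' x a ha
  set L := (toPermHom N Q).ker with hL
  have hL' : ∀ g ∈ L, ∀ a ∉ F, ∃ y ∈ P, g • a = y • a := fun g hg a ha => by
    have h1 : g • orbit P a = orbit P a :=
      congrArg Subtype.val (Equiv.congr_fun (MonoidHom.mem_ker.1 hg) ⟨_, a, ha, rfl⟩)
    obtain ⟨y, hy⟩ : g • a ∈ orbit P a := h1 ▸ Set.smul_mem_smul_set (mem_orbit_self a)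
    exact ⟨y, y.2, hy.symm⟩
  have hT : L.map res ≠ ⊥ := fun h => by
    have h1 := index_dvd_of_le ((Subgroup.map_eq_bot_iff _).1 h)
    have := Fintype.ofFinite Q
    have h2 := hQ (Finset.univ.map (Function.Embedding.subtype (· ∈ Q))) (by simp)
    rw [index_ker, index_ker, MonoidHom.range_eq_top.2 hsurj, card_top, Nat.card_perm] at h1
    have h4 := Nat.le_of_dvd Nat.card_pos (h1.trans (card_subgroup_dvd_card _))
    rw [Nat.card_perm, Nat.card_eq_fintype_card, Fintype.card_coe, Nat.card_eq_fintype_card] at h4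
    rw [Finset.card_map, Finset.card_univ] at h2
    exact (h4.trans (Nat.factorial_le h2)).not_gt (Nat.factorial_lt_of_lt hk1 hkr)
  have hm : ∀ g ∈ L, ∀ a ∉ F, ∃ m : ℤ, ∀ x ∈ P, (g * x * g⁻¹) • a = x ^ m • a := fun g hg a ha => by
    have := hKn a ha
    have := isCyclic_of_prime_card (hK a ha)
    obtain ⟨y, hy, hya⟩ := hL' _ (inv_mem hg) a ha
    obtain ⟨m, hm⟩ := (QuotientGroup.map (stabilizer P a) (stabilizer P a)
      (MulAut.conjNormal (H := P) g).toMonoidHom fun x hx => show (g * x * g⁻¹) • a = a by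
        rw [mul_smul, mul_smul, hya, hfix _ x.2 y hy a hx, ← hya, smul_inv_smul]).map_cyclic
    refine ⟨m, fun x hx => ?_⟩
    have h1 := QuotientGroup.eq.1 (hm ((⟨x, hx⟩ : P) : P ⧸ stabilizer P a))
    rw [mem_stabilizer_iff, mul_smul, inv_smul_eq_iff] at h1
    exact h1.symm
  have hconj := fun g x hx => Normal.conj_mem (H := P) inferInstance x hx g
  obtain ⟨g, hg, h, hgh, hx⟩ : ∃ g ∈ L, ∃ h, res g * res h ≠ res h * res g ∧
      ∀ x ∈ P, g * (h * x * h⁻¹) * g⁻¹ = h * (g * x * g⁻¹) * h⁻¹ := by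
    have := Normal.map (H := L) inferInstance res hsurj
    rcases le_or_gt 5 F.card with h5 | h5
    · have h1 := alternatingGroup_le_of_normal (N := L.map res) (by simpa using h5)
        ((nontrivial_iff_ne_bot _).2 hT)
      by_contra h2
      push Not at h2
      refine absurd (alternatingGroup.isMulCommutative_iff_card_le_three (α := F).1 ⟨⟨fun s t => ?_⟩⟩)
        (by simp; omega)
      obtain ⟨g, hg, hs⟩ := h1 s.2
      obtain ⟨h, hh, ht⟩ := h1 t.2
      by_contra h4
      obtain ⟨x, hx, h6⟩ := h2 g hg h fun h6 => h4 (Subtype.ext (by rwa [hs, ht] at h6))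
      refine h6 (hW _ _ fun a ha => ?_)
      obtain ⟨m, hm1⟩ := hm g hg a ha
      obtain ⟨l, hm2⟩ := hm h hh a ha
      rw [hm1 _ (hconj _ _ hx), hm2 _ (hconj _ _ hx), conj_zpow, conj_zpow, hm1 _ (zpow_mem hx _),
        hm2 _ (zpow_mem hx _), ← zpow_mul, ← zpow_mul, mul_comm]
    obtain ⟨⟨_, g, hg, rfl⟩, h1⟩ := ne_bot_iff_exists_ne_one.1 hT
    obtain ⟨t, ht⟩ := exists_mul_ne_mul (by simpa using hr) fun h => h1 (Subtype.ext h)
    obtain ⟨h, rfl⟩ := hsurj t
    suffices ∃ m : ℤ, ∀ x ∈ P, g * x * g⁻¹ = x ^ m by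
      obtain ⟨m, hm⟩ := this
      exact ⟨g, hg, h, ht, fun x hx => by rw [hm _ (hconj _ _ hx), hm _ hx, conj_zpow]⟩
    let R (a : α) (m : ℤ) : Prop := ∀ x ∈ P, (g * x * g⁻¹) • a = x ^ m • a
    have hR : ∀ a b m, orbit P a = orbit P b → R b m → R a m := fun a b m hab h x hx => by
      obtain ⟨⟨y, hy⟩, rfl⟩ := orbit_eq_iff.1 hab
      change _ • y • b = _ • y • b
      rw [← mul_smul, hcomm _ (hconj _ _ hx) y hy, mul_smul, h x hx, ← mul_smul,
        hcomm y hy _ (zpow_mem hx _), mul_smul]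
    have hRR : ∀ {a b : α} {y : N} {m l : ℤ}, y ∈ P → y • a ≠ a → y ^ m • a = y ^ l • a → R b m → R b l :=
      fun {a b y m l} hy ha h h' x hx => by
        rw [h' x hx, zpow_eq_zpow_iff_modEq.2 (Int.modEq_iff_dvd.2 ((Int.natCast_dvd_natCast.2
          (orderOf_dvd_of_pow_eq_one (hexp x hx))).trans ?_))]
        by_contra h1
        exact ha (smul_eq_of_zpow_smul_eq hp (hexp y hy) h1 (by
          rw [sub_eq_neg_add, zpow_add, mul_smul, ← h, zpow_neg, inv_smul_smul]))
    have hy : ∀ a ∉ F, ∃ y ∈ P, y • a ≠ a := fun a ha => by simpa [hF] using ha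
    have hRR' : ∀ {a c b} {m l : ℤ}, a ∉ F → R a m → R c l → ¬ R b m → R b l →
        orbit P a ≠ orbit P c := fun {a c b m l} ha h1 h2 h4 h5 hac => by
      obtain ⟨y, hy, hya⟩ := hy a ha
      exact h4 (hRR hy hya ((hR _ _ _ hac h2 y hy).symm.trans (h1 y hy)) h5)
    by_cases hFe : ∀ a, a ∈ F
    · exact ⟨0, fun x _ => hW _ _ fun a ha => (ha (hFe a)).elim⟩
    obtain ⟨a, ha⟩ := not_forall.1 hFe
    obtain ⟨m, ham⟩ := hm g hg a ha
    refine ⟨m, fun x hx => hW _ _ fun b hb => ?_⟩
    revert x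
    by_contra hbm
    obtain ⟨l, hbl⟩ := hm g hg b hb
    have hab := hRR' ha ham hbl hbm hbl
    rcases hcyc with hcyc | hcyc
    · have := hQ {orbit P a, orbit P b} (by
        simpa using ⟨⟨a, ha, rfl⟩, ⟨b, hb, rfl⟩⟩)
      rw [Finset.card_pair hab] at this
      omega
    have hpart : ∀ a ∉ F, ∀ m, R a m → ∃ b ∉ F, orbit P a ≠ orbit P b ∧ R b m := fun a ha m h => by
      by_contra h2
      push Not at h2
      have h4 : ∀ s : Finset α, (∀ b ∈ s, b ∉ F ∧ orbit P a ≠ orbit P b) →
          ∃ y ∈ P, y • a ≠ a ∧ ∀ b ∈ s, y • b = b := fun s => by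
        induction s using Finset.induction_on with
        | empty => simpa using hy a ha
        | insert b s _ ih =>
          intro hs
          obtain ⟨y, hy, hya, hys⟩ := ih fun c hc => hs c (Finset.mem_insert_of_mem hc)
          obtain ⟨hb, hab⟩ := hs b (Finset.mem_insert_self _ _)
          obtain ⟨l, hl⟩ := hm g hg b hb
          refine ⟨(y ^ l)⁻¹ * (g * y * g⁻¹), mul_mem (inv_mem (zpow_mem hy _)) (hconj _ _ hy),
            fun h4 => h2 b hb hab (hRR hy hya ?_ hl), fun c hc => ?_⟩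
          · rw [mul_smul, h y hy, inv_smul_eq_iff] at h4
            exact h4.symm
          · rw [mul_smul, inv_smul_eq_iff]
            rcases Finset.mem_insert.1 hc with rfl | hc
            · exact hl y hy
            · obtain ⟨j, hj⟩ := hm g hg c (hs c (Finset.mem_insert_of_mem hc)).1
              exact (hj y hy).trans (((stabilizer N c).zpow_mem (hys c hc) j).trans
                ((stabilizer N c).zpow_mem (hys c hc) l).symm)
      obtain ⟨y, hy, hya, hys⟩ := h4 (Finset.univ.filter fun b => b ∉ F ∧ orbit P a ≠ orbit P b)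
        (by simp)
      refine hcyc y hy ?_
      rw [← hK a ha, index_stabilizer, ← Set.ncard_coe_finset]
      congr 1
      ext b
      simp only [Finset.coe_filter, Finset.mem_univ, true_and, Set.mem_ofPred_eq] at hys ⊢
      refine ⟨fun hb => orbit_eq_iff.1 (by_contra fun h5 => hb (hys b ?_)), ?_⟩
      · simpa using ⟨fun h6 => hb ((hF b).1 h6 y hy), Ne.symm h5⟩
      · rintro ⟨⟨z, hz⟩, rfl⟩ h5
        exact hya (by simpa using hfix y hy _ (inv_mem hz) _ h5)
    obtain ⟨a', ha', haa, ham'⟩ := hpart a ha m ham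
    obtain ⟨b', hb', hbb, hbl'⟩ := hpart b hb l hbl
    have := hQ {orbit P a, orbit P a', orbit P b, orbit P b'} (by
      simpa using ⟨⟨a, ha, rfl⟩, ⟨a', ha', rfl⟩, ⟨b, hb, rfl⟩, ⟨b', hb', rfl⟩⟩)
    rw [Finset.card_insert_of_notMem (by simpa using ⟨haa, hab, hRR' ha ham hbl' hbm hbl⟩),
      Finset.card_insert_of_notMem (by
        simpa using ⟨hRR' ha' ham' hbl hbm hbl, hRR' ha' ham' hbl' hbm hbl⟩),
      Finset.card_pair hbb] at this
    omega
  have := Normal.map (H := L ⊓ centralizer (P : Set N)) inferInstance res hsurj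
  set U := (L ⊓ centralizer (P : Set N)).map res
  have hU : IsPGroup p U := by
    rintro ⟨_, c, hc, rfl⟩
    refine ⟨1, Subtype.ext ?_⟩
    suffices c ^ p = 1 by simp [← map_pow, this]
    refine hW _ _ fun a ha => ?_
    obtain ⟨y, hy, hya⟩ := hL' c hc.1 a ha
    have h1 : ∀ j, c ^ j • a = y ^ j • a := fun j => by
      induction j with
      | zero => simp
      | succ j ih => rw [pow_succ', mul_smul, ih, ← mul_smul, ← hc.2 _ (pow_mem hy j), mul_smul, hya,
          ← mul_smul, pow_succ]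
    rw [h1, hexp y hy]
  have hU1 : U ≠ ⊥ := fun h1 => hgh <| by
    have h2 : res ((h * g)⁻¹ * (g * h)) ∈ U := mem_map_of_mem _ ⟨by
      simpa [mul_assoc] using mul_mem (inv_mem hg) (Normal.conj_mem' inferInstance g hg h),
      fun x hx' => by
        calc x * ((h * g)⁻¹ * (g * h))
            = (h * g)⁻¹ * (h * (g * x * g⁻¹) * h⁻¹) * (g * h) := by group
          _ = _ := by rw [← hx x hx']; group⟩
    rw [h1, mem_bot, map_mul, map_inv, inv_mul_eq_one, map_mul, map_mul] at h2
    exact h2.symm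
  obtain ⟨n, hn⟩ := hU.exists_card_eq
  have : Nontrivial F := Fintype.one_lt_card_iff_nontrivial.1 (by simp; omega)
  rcases le_or_gt 5 F.card with h5 | h5
  · have h1 := card_dvd_of_le (alternatingGroup_le_of_normal (N := U) (by simpa using h5)
      ((nontrivial_iff_ne_bot _).2 hU1))
    have h2 : Nat.factorial 4 ∣ 2 * Nat.card (alternatingGroup F) := by
      rw [two_mul_nat_card_alternatingGroup, Nat.card_perm]
      exact Nat.factorial_dvd_factorial (by simp; omega)
    have h4 : 2 ∣ p ^ n := hn ▸ Dvd.dvd.trans (by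
      rw [show Nat.factorial 4 = 24 from rfl] at h2; omega) h1
    exact hp2 ((Nat.prime_dvd_prime_iff_eq Nat.prime_two hp).1 (Nat.prime_two.dvd_of_dvd_pow h4)).symm
  · have := isPretransitive_of_normal (X := F) hU1
    have h1 := card_dvd_card_of_isPretransitive U F
    rw [hn, Nat.card_eq_fintype_card, Fintype.card_coe] at h1
    obtain h2 | h2 : F.card = 3 ∨ F.card = 4 := by omega
    · exact h3 ⟨((Nat.prime_dvd_prime_iff_eq Nat.prime_three hp).1
        (Nat.prime_three.dvd_of_dvd_pow (h2 ▸ h1))).symm, h2⟩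
    · exact hp2 ((Nat.prime_dvd_prime_iff_eq Nat.prime_two hp).1 (Nat.prime_two.dvd_of_dvd_pow
        (Dvd.dvd.trans (by simp [h2]) h1))).symm

variable {α : Type*} [Fintype α] [DecidableEq α] {G : Subgroup (Perm α)} {F : Finset α} {p : ℕ}

omit [Fintype α] [DecidableEq α] in
theorem exists_mem_eqOn (hG : IsMultiplyPretransitive G α F.card) (σ : Perm α) :
    ∃ g ∈ G, ∀ a ∈ F, g a = σ a := by
  let x : Fin F.card ↪ α := F.equivFin.symm.toEmbedding.trans (Function.Embedding.subtype _)
  obtain ⟨g, hg⟩ := hG.exists_smul_eq x (σ • x)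
  refine ⟨g, g.2, fun a ha => ?_⟩
  simpa [x] using! DFunLike.congr_fun hg (F.equivFin ⟨a, ha⟩)

theorem alternatingGroup_le_of_fix_compl (hG : IsMultiplyPretransitive G α F.card)
    (h5 : 5 ≤ Fintype.card α) {w : Perm α} (hw : w ∈ G) (hw1 : w ≠ 1) (hwF : ∀ a ∉ F, w a = a) :
    alternatingGroup α ≤ G := by
  refine (alternatingGroup_le_of_normal (N := normalClosure {w}) (by simpa using h5)
    ((nontrivial_iff_ne_bot _).2 fun h => hw1 (mem_bot.1 (h ▸ subset_normalClosure rfl)))).trans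
    ((closure_le _).2 fun v hv => ?_)
  obtain ⟨u, hu, hv⟩ := Group.mem_conjugatesOfSet_iff.1 hv
  obtain ⟨σ, rfl⟩ := isConj_iff.1 (Set.mem_singleton_iff.1 hu ▸ hv)
  obtain ⟨g, hg, hgσ⟩ := exists_mem_eqOn hG σ
  have h1 : Commute (g⁻¹ * σ) w := Perm.Disjoint.commute fun a =>
    (em (a ∈ F)).imp (fun ha => by simp [← hgσ a ha]) (hwF a)
  rw [show σ * w * σ⁻¹ = g * (g⁻¹ * σ * w * (g⁻¹ * σ)⁻¹) * g⁻¹ by group, h1.eq, mul_inv_cancel_right]
  exact mul_mem (mul_mem hg hw) (inv_mem hg)

theorem exists_mem_normalizer_eqOn [Fact p.Prime] (hG : IsMultiplyPretransitive G α F.card)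
    {P : Subgroup (Perm α)} (hP : Transfer.IsSylowIn p P (G ⊓ fixingSubgroup (Perm α) (F : Set α)))
    (σ : Perm F) : ∃ g ∈ G ⊓ normalizer (P : Set (Perm α)), ∀ a : F, g a = σ a := by
  obtain ⟨g, hg, hgσ⟩ := exists_mem_eqOn hG (ofSubtype σ)
  replace hgσ : ∀ a : F, g a = σ a := fun a => (hgσ a a.2).trans (ofSubtype_apply_coe σ a)
  obtain ⟨n, hn, y, hy, rfl⟩ := hP.frattini le_rfl (h := g) (mem_normalizer_fintype fun x hx =>
    ⟨G.mul_mem (G.mul_mem hg hx.1) (G.inv_mem hg), fun a => by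
      obtain ⟨b, rfl⟩ := σ.surjective a
      have : x b = b := hx.2 b
      simp [← hgσ, this]⟩)
  refine ⟨y, ⟨(Subgroup.mul_mem_cancel_left _ hn.1).1 hg, hy⟩, fun a => n.injective ?_⟩
  exact (hgσ a).trans (hn.2 (σ a)).symm

/-- Jordan–Miller: an `r`-fold transitive group of degree `k p + r` in which a Sylow
`p`-subgroup of the stabilizer of `r` points fixes no further point. -/
theorem alternatingGroup_le_of_sylow {k : ℕ} (hp : p.Prime)
    (hG : IsMultiplyPretransitive G α F.card) {P : Subgroup (Perm α)}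
    (hP : Transfer.IsSylowIn p P (G ⊓ fixingSubgroup (Perm α) (F : Set α)))
    (hF : ∀ a, (∀ x ∈ P, x a = a) → a ∈ F) (hcard : Fintype.card α = k * p + F.card) (hk1 : 1 ≤ k)
    (hk : k < p) (hkr : k < F.card) (hr : 3 ≤ F.card) (hp2 : p ≠ 2) (h3 : ¬ (p = 3 ∧ F.card = 3))
    (hcyc : k = 1 ∨ ∀ x ∈ P, x.support.card ≠ p) : alternatingGroup α ≤ G := by
  have := Fact.mk hp
  let N := G ⊓ normalizer (P : Set (Perm α))
  have hF' : ∀ g ∈ N, ∀ a ∈ F, g a ∈ F := fun g hg a ha => hF _ fun x hx => by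
    have : g⁻¹ (x (g a)) = a := (hP.le ((mem_normalizer_iff''.1 hg.2 x).1 hx)).2 ⟨a, ha⟩
    exact Perm.inv_eq_iff_eq.1 this
  let res : N →* Perm F :=
    { toFun g := (g : Perm α).subtypePerm fun a =>
        ⟨fun h => by simpa using hF' _ (inv_mem g.2) _ h, hF' _ g.2 a⟩
      map_one' := by ext; rfl
      map_mul' _ _ := by ext; rfl }
  have hPN : P ≤ N := le_inf (hP.le.trans inf_le_left) le_normalizer
  have : (P.subgroupOf N).Normal := (normal_subgroupOf_iff_le_normalizer hPN).2 inf_le_right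
  obtain ⟨w, hw1, hw⟩ := exists_fix_compl (N := N) (P := P.subgroupOf N) (F := F) hp
    hP.isPGroup.comap_subtype (fun a => ⟨fun ha x hx => (hP.le hx).2 ⟨a, ha⟩,
      fun h => hF a fun x hx => h ⟨x, hPN hx⟩ hx⟩) res (fun _ _ => rfl) (fun σ => by
        obtain ⟨g, hg, h⟩ := exists_mem_normalizer_eqOn hG hP σ
        exact ⟨⟨g, hg⟩, Equiv.ext fun a => Subtype.ext (h a)⟩)
    hcard hk1 hk hkr hr hp2 h3 (hcyc.imp_right fun h x hx => h x hx)
  exact alternatingGroup_le_of_fix_compl hG (by nlinarith [hp.two_le]) w.2.1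
    (fun h => hw1 (Subtype.ext h)) hw

theorem mem_of_sylow_fix (hG : IsMultiplyPretransitive G α (F.card + 1))
    (hp : p ∣ Fᶜ.card) {P : Subgroup (Perm α)}
    (hP : Transfer.IsSylowIn p P (G ⊓ fixingSubgroup (Perm α) (F : Set α))) (a : α)
    (h : ∀ x ∈ P, x a = a) : a ∈ F := by
  by_contra ha
  refine hP.not_dvd (hp.trans ?_)
  refine Dvd.dvd.trans (dvd_of_eq ?_) (relIndex_dvd_of_le_left _ (show P ≤ stabilizer _ a from h))
  change _ = (stabilizer ↥(G ⊓ fixingSubgroup (Perm α) (F : Set α)) a).index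
  rw [index_stabilizer, ← Set.ncard_coe_finset]
  congr 1
  ext b
  simp only [Finset.coe_compl, Set.mem_compl_iff, Finset.mem_coe]
  refine ⟨fun hb => ?_, ?_⟩
  · obtain ⟨g, hg, h1⟩ := exists_mem_eqOn (F := insert a F)
      (by rwa [Finset.card_insert_of_notMem ha]) (swap a b)
    refine ⟨⟨g, hg, fun c => ?_⟩, (h1 a (Finset.mem_insert_self _ _)).trans (swap_apply_left _ _)⟩
    exact (h1 c (Finset.mem_insert_of_mem c.2)).trans (swap_apply_of_ne_of_ne
      (fun h => ha (h ▸ c.2)) fun h => hb (h ▸ c.2))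
  · rintro ⟨g, rfl⟩ hb
    exact ha ((g : Perm α).injective (g.2.2 ⟨_, hb⟩) ▸ hb)

theorem isPreprimitive_ofFixingSubgroup_of_isCycle (hp : p.Prime) {g : Perm α} (hgc : g.IsCycle)
    (hgp : g.support.card = p) (hg : g ∈ G) : IsPreprimitive (fixingSubgroup G (g.support : Set α)ᶜ)
      (SubMulAction.ofFixingSubgroup G (g.support : Set α)ᶜ) := by
  classical
  have := isPretransitive_of_isCycle_mem hgc hg
  apply IsPreprimitive.of_prime_card
  convert! hp
  rw [Nat.card_eq_fintype_card, Fintype.card_subtype, ← hgp]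
  congr 1
  ext x
  simp [SubMulAction.mem_ofFixingSubgroup_iff]

/-- A transitive group containing a cycle of prime length moving more than half of the points is
primitive. -/
theorem isPreprimitive_of_isCycle [IsPretransitive G α] (hp : p.Prime)
    (hp' : Fintype.card α < 2 * p) {g : Perm α} (hgc : g.IsCycle) (hgp : g.support.card = p)
    (hg : g ∈ G) : IsPreprimitive G α := by
  have := isPreprimitive_ofFixingSubgroup_of_isCycle hp hgc hgp hg
  refine IsPreprimitive.of_card_lt
    (f := SubMulAction.ofFixingSubgroup_equivariantMap G (g.support : Set α)ᶜ) ?_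
  rw [Nat.card_eq_fintype_card]
  refine hp'.trans_le (Nat.mul_le_mul_left _ ?_)
  rw [← hgp, ← Set.ncard_coe_finset]
  exact Set.ncard_le_ncard fun a ha => ⟨⟨a, by
    simpa [SubMulAction.mem_ofFixingSubgroup_iff] using ha⟩, rfl⟩

theorem isMultiplyPretransitive_of_isCycle (hG : IsPreprimitive G α) (hp : p.Prime)
    (hp' : p < Fintype.card α) {g : Perm α} (hgc : g.IsCycle) (hgp : g.support.card = p)
    (hg : g ∈ G) : IsMultiplyPretransitive G α (g.supportᶜ.card + 1) := by
  have h1 := Finset.card_compl g.support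
  have := hG.isMultiplyPreprimitive (n := g.supportᶜ.card - 1) (s := (g.support : Set α)ᶜ)
    (by rw [← Finset.coe_compl, Set.ncard_coe_finset]; omega)
    (by rw [Nat.card_eq_fintype_card]; have := hp.two_le; omega)
    (isPreprimitive_ofFixingSubgroup_of_isCycle hp hgc hgp hg)
  rw [show g.supportᶜ.card - 1 + 2 = g.supportᶜ.card + 1 by omega] at this
  exact IsMultiplyPreprimitive.isMultiplyPretransitive ..

/-- **Jordan**: a primitive group containing a cycle of prime length fixing at least three points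
contains the alternating group. -/
theorem alternatingGroup_le_of_isCycle (hG : IsPreprimitive G α) (hp : p.Prime)
    (hp' : p + 3 ≤ Fintype.card α) {g : Perm α} (hgc : g.IsCycle) (hgp : g.support.card = p)
    (hg : g ∈ G) : alternatingGroup α ≤ G := by
  have := Fact.mk hp
  by_cases hp2 : p = 2
  · exact subgroup_eq_top_of_isPreprimitive_of_isSwap_mem hG g
      (card_support_eq_two.1 (hgp.trans hp2)) hg ▸ le_top
  by_cases hp3 : p = 3
  · exact alternatingGroup_le_of_isPreprimitive_of_isThreeCycle_mem hG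
      (card_support_eq_three_iff.1 (hgp.trans hp3)) hg
  have h1 := Finset.card_compl g.support
  have h2 := isMultiplyPretransitive_of_isCycle hG hp (by omega) hgc hgp hg
  obtain ⟨P, hP⟩ := Transfer.exists_isSylowIn (p := p) 
    (G ⊓ fixingSubgroup (Perm α) ((g.supportᶜ : Finset α) : Set α))
  exact alternatingGroup_le_of_sylow (k := 1) hp (isMultiplyPretransitive_of_le (n := _ + 1)
    le_self_add (by rw [Nat.card_eq_fintype_card]; have := hp.pos; omega)) hP
    (mem_of_sylow_fix h2 (by rw [compl_compl, hgp]) hP) (by omega) le_rfl hp.one_lt (by omega)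
    (by omega) hp2 (fun h => hp3 h.1) (Or.inl rfl)

theorem exists_isCycle_mem_zpowers (hp : p.Prime) {x : Perm α} (h : p ∣ orderOf x)
    (h' : x.support.card < 2 * p) : ∃ y ∈ zpowers x, y.IsCycle ∧ y.support.card = p := by
  have h1 := orderOf_pow_orderOf_div (orderOf_pos x).ne' h
  have h2 := isCycle_of_prime_order (h1.symm ▸ hp)
    ((Finset.card_le_card (support_pow_le x _)).trans_lt (h1.symm ▸ h'))
  exact ⟨_, pow_mem (mem_zpowers x) _, h2, h2.orderOf.symm.trans h1⟩

/-- The normalizer of the group generated by a cycle of prime length. -/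
theorem card_normalizer_zpowers_dvd (hp : p.Prime) {g : Perm α} (hgc : g.IsCycle)
    (hgp : g.support.card = p) : Nat.card (normalizer (zpowers g : Set (Perm α))) ∣
      (Fintype.card α - p).factorial * p * (p - 1) := by
  rw [← (zpowers g).normalizerMonoidHom.ker.card_mul_index, index_ker, normalizerMonoidHom_ker,
    Nat.card_congr (subgroupOfEquivOfLe (centralizer_le_normalizer _)).toEquiv,
    zpowers_eq_closure, centralizer_closure, nat_card_centralizer, hgc.cycleType, hgp]
  refine Nat.mul_dvd_mul (by simp) ((card_subgroup_dvd_card _).trans ?_)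
  rw [← zpowers_eq_closure, IsCyclic.card_mulAut, Nat.card_zpowers, hgc.orderOf, hgp,
    Nat.totient_prime hp]

theorem relIndex_normalizer_modEq_one {X : Type*} [Group X] [Finite X] [Fact p.Prime]
    {P K : Subgroup X} (hP : Transfer.IsSylowIn p P K) :
    (normalizer (P : Set X)).relIndex K ≡ 1 [MOD p] := by
  rw [relIndex, subgroupOf_normalizer_eq hP.le, ← hP.coe_toSylow]
  exact hP.toSylow.card_eq_index_normalizer ▸ card_sylow_modEq_one p K

omit [DecidableEq α] in
theorem isSylowIn_zpowers (hp : p.Prime) (hn : Fintype.card α < 2 * p) {x : Perm α}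
    (hx : orderOf x = p) (hG : x ∈ G) : Transfer.IsSylowIn p (zpowers x) G := by
  have := Fact.mk hp
  refine ⟨zpowers_le.2 hG, IsPGroup.of_card (n := 1) (by rw [Nat.card_zpowers, hx, pow_one]),
    fun h => ?_⟩
  have h0 := PGrp.card_mul_relIndex (zpowers_le.2 hG)
  rw [Nat.card_zpowers, hx] at h0
  have h1 := (Nat.mul_dvd_mul_left p h).trans ((dvd_of_eq h0).trans (card_subgroup_dvd_card G))
  rw [Nat.card_perm, Nat.card_eq_fintype_card, ← sq,
    hp.pow_dvd_factorial_iff (b := 2) (Nat.log_lt_of_lt_pow' two_ne_zero (by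
      nlinarith [hp.two_le]))] at h1
  have := (Nat.div_lt_iff_lt_mul hp.pos).2 hn
  simp at h1
  omega

theorem exists_isSwap_mem_normalizer {x : Perm α} (hx : x.support.card + 2 ≤ Fintype.card α) :
    ∃ τ ∈ normalizer (zpowers x : Set (Perm α)), τ.IsSwap := by
  obtain ⟨a, ha, b, hb, hab⟩ := Finset.one_lt_card.1
    (show 1 < x.supportᶜ.card by rw [Finset.card_compl]; omega)
  refine ⟨swap a b, centralizer_le_normalizer _ ?_, a, b, hab, rfl⟩
  rw [zpowers_eq_closure, centralizer_closure, mem_centralizer_singleton_iff]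
  refine (Perm.Disjoint.commute (disjoint_iff_disjoint_support.2 ?_)).eq
  rw [support_swap hab]
  simpa using And.intro ha hb

end Cfsg.Agent.Perm
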