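import Mathlib
import Cfsg.Agent.Lib.Coprime.FixTools

/-!
# Sets of Sylow subgroups contained in a subgroup

For a subgroup `J` of a finite group, `syl p J` is the set of Sylow `p`-subgroups of the
ambient group contained in `J`.  For two such sets `A ⊂ T` we prove
`(2p - 1) #A ≤ (p - 1) #T`.
-/

set_option autoImplicit false
set_option linter.unusedSectionVars false

open scoped Classical Pointwise

namespace Cfsg.Agent.SylFix

open Finset

variable {G : Type*} [Group G] {p : ℕ} [Fintype (Sylow p G)]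

/-- The Sylow `p`-subgroups of the ambient group contained in `J`. -/
noncomputable def syl (p : ℕ) [Fintype (Sylow p G)] (J : Subgroup G) : Finset (Sylow p G) :=
  univ.filter fun P => (P : Subgroup G) ≤ J

/-- The subgroup generated by a set of Sylow subgroups. -/
def gen (T : Finset (Sylow p G)) : Subgroup G := ⨆ P ∈ T, (P : Subgroup G)

/-- A set of Sylow subgroups of the form `syl p J`. -/
def Closed (T : Finset (Sylow p G)) : Prop := ∃ J : Subgroup G, T = syl p J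

theorem mem_syl {J : Subgroup G} {P : Sylow p G} : P ∈ syl p J ↔ (P : Subgroup G) ≤ J := by
  simp [syl]

omit [Fintype (Sylow p G)] in
theorem le_gen {T : Finset (Sylow p G)} {P : Sylow p G} (h : P ∈ T) : (P : Subgroup G) ≤ gen T :=
  le_iSup₂_of_le (f := fun (P : Sylow p G) (_ : P ∈ T) => (P : Subgroup G)) P h le_rfl

omit [Fintype (Sylow p G)] in
theorem gen_mono {T U : Finset (Sylow p G)} (h : T ⊆ U) : gen T ≤ gen U :=
  iSup₂_le fun _ hP => le_gen (h hP)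

theorem gen_syl_le (J : Subgroup G) : gen (syl p J) ≤ J :=
  iSup₂_le fun _ hP => mem_syl.mp hP

theorem Closed.inter {T U : Finset (Sylow p G)} (hT : Closed T) (hU : Closed U) :
    Closed (T ∩ U) := by
  obtain ⟨J, rfl⟩ := hT
  obtain ⟨K, rfl⟩ := hU
  exact ⟨J ⊓ K, by ext P; simp [mem_syl]⟩

theorem smul_syl (g : G) (J : Subgroup G) : g • syl p J = syl p (MulAut.conj g • J) := by
  ext P
  rw [← Finset.inv_smul_mem_iff, mem_syl, mem_syl, Sylow.coe_subgroup_smul, map_inv,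
    Subgroup.pointwise_smul_subset_iff, inv_inv]

theorem Closed.smul {T : Finset (Sylow p G)} (hT : Closed T) (g : G) : Closed (g • T) := by
  obtain ⟨J, rfl⟩ := hT
  exact ⟨_, smul_syl g J⟩

theorem Closed.smul_eq {T : Finset (Sylow p G)} (hT : Closed T) {k : G} (hk : k ∈ gen T) :
    k • T = T := by
  obtain ⟨J, rfl⟩ := hT
  rw [smul_syl, Subgroup.conj_smul_eq_self_of_mem (gen_syl_le J hk)]

variable [Finite G] [hp : Fact p.Prime]

omit [Fintype (Sylow p G)] in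
theorem exists_smul_eq {T : Finset (Sylow p G)} {P Q : Sylow p G} (hP : P ∈ T) (hQ : Q ∈ T) :
    ∃ k ∈ gen T, k • P = Q := by
  obtain ⟨k, hk⟩ := MulAction.exists_smul_eq (gen T) (P.subtype (le_gen hP)) (Q.subtype (le_gen hQ))
  rw [Sylow.smul_subtype] at hk
  exact ⟨k, k.2, Sylow.subtype_injective hk⟩

theorem Closed.exists_le {A : Finset (Sylow p G)} (hA : Closed A) (hne : A.Nonempty)
    {Y : Subgroup G} (hY : IsPGroup p Y) (h : ∀ y ∈ Y, y • A = A) :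
    ∃ Q ∈ A, Y ≤ (Q : Subgroup G) := by
  obtain ⟨Q, hQ⟩ := hne
  let N : Subgroup G := MulAction.stabilizer G A
  have hQN : (Q : Subgroup G) ≤ N := fun k hk => hA.smul_eq (le_gen hQ hk)
  have hYN : Y ≤ N := fun y hy => h y hy
  obtain ⟨R, hR⟩ := (hY.comap_subtype (K := N)).exists_le_sylow
  obtain ⟨n, hn⟩ := MulAction.exists_smul_eq N (Q.subtype hQN) R
  rw [Sylow.smul_subtype] at hn
  refine ⟨n • Q, ?_, fun y hy => ?_⟩
  · have h1 : (n : G) • A = A := n.2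
    rw [← h1]
    exact Finset.smul_mem_smul_finset hQ
  · have h2 : (⟨y, hYN hy⟩ : N) ∈ (R : Subgroup N) := hR hy
    rw [← hn] at h2
    exact h2

theorem Closed.mem_of_smul_eq {A : Finset (Sylow p G)} (hA : Closed A) (hne : A.Nonempty)
    {P : Sylow p G} (h : ∀ y ∈ (P : Subgroup G), y • A = A) : P ∈ A := by
  obtain ⟨Q, hQ, hle⟩ := hA.exists_le hne P.isPGroup' h
  rwa [show P = Q from Sylow.ext (P.is_maximal' Q.isPGroup' hle).symm]

theorem dvd_card {𝓖 : Finset (Finset (Sylow p G))} (P : Sylow p G)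
    (hinv : ∀ y ∈ (P : Subgroup G), ∀ A ∈ 𝓖, y • A ∈ 𝓖)
    (h : ∀ A ∈ 𝓖, Closed A ∧ A.Nonempty ∧ P ∉ A) : p ∣ #𝓖 := by
  have h1 := Coprime.ncard_modEq_of_invariant (S := (𝓖 : Set (Finset (Sylow p G)))) P.isPGroup'
    (fun y hy A hA => hinv y hy A hA)
  rw [Set.ncard_coe_finset, show {w ∈ (𝓖 : Set (Finset (Sylow p G))) |
      ∀ a ∈ (P : Subgroup G), a • w = w} = ∅ from Set.eq_empty_of_forall_notMem fun A hA =>
      (h A hA.1).2.2 ((h A hA.1).1.mem_of_smul_eq (h A hA.1).2.1 hA.2), Set.ncard_empty] at h1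
  exact (Nat.modEq_zero_iff_dvd).mp h1

omit [Fintype (Sylow p G)] in
theorem notMem_smul {P : Sylow p G} {y : G} (hy : y ∈ (P : Subgroup G)) {A : Finset (Sylow p G)}
    (h : P ∉ A) : P ∉ y • A := by
  rwa [← Finset.inv_smul_mem_iff, Coprime.smul_sylow_eq_of_mem (inv_mem hy)]

/-- The defect of `A` in `T`. -/
noncomputable def dlt (T A : Finset (Sylow p G)) : ℤ :=
  ((p : ℤ) - 1) * #T - (2 * p - 1) * #(T ∩ A)

/-- The defect of a family at `P`. -/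
noncomputable def dfc (P : Sylow p G) (𝓖 : Finset (Finset (Sylow p G))) : ℤ :=
  ((p : ℤ) - 1) * #𝓖 - (2 * p - 1) * #{A ∈ 𝓖 | P ∈ A}

omit [Fintype (Sylow p G)] in
theorem card_mul_dfc {T : Finset (Sylow p G)} {P : Sylow p G} (hP : P ∈ T)
    {𝓖 : Finset (Finset (Sylow p G))} (hinv : ∀ k ∈ gen T, ∀ A ∈ 𝓖, k • A ∈ 𝓖) :
    #T * dfc P 𝓖 = ∑ A ∈ 𝓖, dlt T A := by
  have h1 : ∑ A ∈ 𝓖, #(T ∩ A) = #T * #{A ∈ 𝓖 | P ∈ A} := by
    refine Finset.sum_card_inter fun Q hQ => ?_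
    obtain ⟨k, hk, rfl⟩ := exists_smul_eq hP hQ
    symm
    refine Finset.card_nbij' (fun A => k • A) (fun A => k⁻¹ • A) ?_ ?_ ?_ ?_
    · intro A hA
      simp only [coe_filter, Set.mem_ofPred_eq] at hA ⊢
      exact ⟨hinv k hk A hA.1, Finset.smul_mem_smul_finset hA.2⟩
    · intro A hA
      simp only [coe_filter, Set.mem_ofPred_eq] at hA ⊢
      exact ⟨hinv _ (inv_mem hk) A hA.1, Finset.mem_inv_smul_finset_iff.mpr hA.2⟩
    · intro A _
      simp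
    · intro A _
      simp
  have h2 : ∑ A ∈ 𝓖, (#(T ∩ A) : ℤ) = #T * #{A ∈ 𝓖 | P ∈ A} := by exact_mod_cast h1
  simp only [dlt, dfc, Finset.sum_sub_distrib, ← Finset.mul_sum, h2, Finset.sum_const, nsmul_eq_mul]
  ring

/-- The inductive hypothesis below the size `n`. -/
def Below (p : ℕ) (G : Type*) [Group G] [Fintype (Sylow p G)] (n : ℕ) : Prop :=
  ∀ T A : Finset (Sylow p G), Closed T → #T < n → Closed A → A ⊂ T →
    (2 * (p : ℤ) - 1) * #A ≤ (p - 1) * #T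

/-- The traces on `T` of the conjugates of `A₀` under the group generated by `T₀`. -/
noncomputable def trc (T₀ A₀ T : Finset (Sylow p G)) : Finset (Finset (Sylow p G)) :=
  univ.filter fun B => B ≠ T ∧ ∃ k ∈ gen T₀, B = (k • A₀) ∩ T

theorem mem_trc {T₀ A₀ T B : Finset (Sylow p G)} :
    B ∈ trc T₀ A₀ T ↔ B ≠ T ∧ ∃ k ∈ gen T₀, B = (k • A₀) ∩ T := by
  simp [trc]

theorem ssubset_of_mem_trc {T₀ A₀ T B : Finset (Sylow p G)} (h : B ∈ trc T₀ A₀ T) : B ⊂ T := by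
  obtain ⟨h1, k, -, rfl⟩ := mem_trc.mp h
  exact Finset.ssubset_iff_subset_ne.mpr ⟨inter_subset_right, h1⟩

theorem closed_of_mem_trc {T₀ A₀ T B : Finset (Sylow p G)} (hA : Closed A₀) (hT : Closed T)
    (h : B ∈ trc T₀ A₀ T) : Closed B := by
  obtain ⟨-, k, -, rfl⟩ := mem_trc.mp h
  exact (hA.smul k).inter hT

theorem smul_mem_trc {T₀ A₀ T B : Finset (Sylow p G)} (hT : Closed T) (hs : T ⊆ T₀) {k : G}
    (hk : k ∈ gen T) (h : B ∈ trc T₀ A₀ T) : k • B ∈ trc T₀ A₀ T := by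
  obtain ⟨h1, l, hl, rfl⟩ := mem_trc.mp h
  refine mem_trc.mpr ⟨fun e => h1 ?_, k * l, mul_mem (gen_mono hs hk) hl, ?_⟩
  · rw [← hT.smul_eq hk] at e
    have := smul_left_cancel k e
    rwa [hT.smul_eq hk] at this
  · rw [Finset.smul_finset_inter, hT.smul_eq hk, mul_smul]

/-- The invariant carried along the chain of intersections. -/
structure Inv (T₀ A₀ T : Finset (Sylow p G)) (i : ℕ) : Prop where
  closed : Closed T
  sub : T ⊆ T₀
  ne : T.Nonempty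
  emp : ∅ ∉ trc T₀ A₀ T
  le : ∑ B ∈ trc T₀ A₀ T, dlt T B ≤ p * ((i : ℤ) - 1) * #T

omit [Fintype (Sylow p G)] in
theorem dlt_of_subset {T A : Finset (Sylow p G)} (h : A ⊆ T) :
    dlt T A = ((p : ℤ) - 1) * #T - (2 * p - 1) * #A := by
  rw [dlt, Finset.inter_eq_right.mpr h]

theorem card_nonmax {T₀ A₀ T : Finset (Sylow p G)} {i : ℕ} (hA : Closed A₀) (h : Inv T₀ A₀ T i)
    {B A : Finset (Sylow p G)} (hB : B ∈ trc T₀ A₀ T) (hA1 : A ∈ trc T₀ A₀ T) (hBA : B ⊂ A) :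
    2 * p ≤ #{C ∈ trc T₀ A₀ T | ∃ E ∈ trc T₀ A₀ T, C ⊂ E} := by
  have hne : ∀ C ∈ trc T₀ A₀ T, C.Nonempty := fun C hC =>
    Finset.nonempty_iff_ne_empty.mpr fun e => h.emp (e ▸ hC)
  have hcl : ∀ C ∈ trc T₀ A₀ T, Closed C := fun C hC => closed_of_mem_trc hA h.closed hC
  have hAT := ssubset_of_mem_trc hA1
  obtain ⟨P, hPT, hPA⟩ := Finset.exists_of_ssubset hAT
  obtain ⟨Q', hQA, hQB⟩ := Finset.exists_of_ssubset hBA
  obtain ⟨Q, hQ⟩ := hne B hB
  have hss : ∀ (k : G) (C E : Finset (Sylow p G)), C ⊂ E → k • C ⊂ k • E := fun k C E hCE =>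
    Finset.ssubset_iff_subset_ne.mpr ⟨Finset.smul_finset_subset_smul_finset_iff.mpr hCE.subset,
      fun e => hCE.ne (smul_left_cancel k e)⟩
  have h1 : p ∣ #{C ∈ trc T₀ A₀ T | C ⊂ A ∧ Q' ∉ C} := by
    refine dvd_card Q' (fun y hy C hC => ?_) fun C hC => ?_
    · rw [mem_filter] at hC ⊢
      refine ⟨smul_mem_trc h.closed h.sub (le_gen (hAT.subset hQA) hy) hC.1, ?_,
        notMem_smul hy hC.2.2⟩
      have := hss y _ _ hC.2.1
      rwa [(hcl A hA1).smul_eq (le_gen hQA hy)] at this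
    · rw [mem_filter] at hC
      exact ⟨hcl C hC.1, hne C hC.1, hC.2.2⟩
  have h2 : p ≤ #{C ∈ trc T₀ A₀ T | C ⊂ A ∧ Q' ∉ C} :=
    Nat.le_of_dvd (card_pos.mpr ⟨B, mem_filter.mpr ⟨hB, hBA, hQB⟩⟩) h1
  obtain ⟨k, hk, hkQ⟩ := exists_smul_eq (hBA.subset hQ) hQA
  have h3 : p ∣ #{C ∈ trc T₀ A₀ T | (∃ E ∈ trc T₀ A₀ T, C ⊂ E) ∧ P ∉ C} := by
    refine dvd_card P (fun y hy C hC => ?_) fun C hC => ?_
    · rw [mem_filter] at hC ⊢
      obtain ⟨hC1, ⟨E, hE, hCE⟩, hC3⟩ := hC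
      exact ⟨smul_mem_trc h.closed h.sub (le_gen hPT hy) hC1,
        ⟨y • E, smul_mem_trc h.closed h.sub (le_gen hPT hy) hE, hss y _ _ hCE⟩, notMem_smul hy hC3⟩
    · rw [mem_filter] at hC
      exact ⟨hcl C hC.1, hne C hC.1, hC.2.2⟩
  have h4 : #{C ∈ trc T₀ A₀ T | C ⊂ A ∧ Q' ∉ C} <
      #{C ∈ trc T₀ A₀ T | (∃ E ∈ trc T₀ A₀ T, C ⊂ E) ∧ P ∉ C} := by
    refine card_lt_card (Finset.ssubset_iff_of_subset ?_ |>.mpr ⟨k • B, ?_, ?_⟩)
    · intro C hC
      rw [mem_filter] at hC ⊢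
      exact ⟨hC.1, ⟨A, hA1, hC.2.1⟩, fun hP => hPA (hC.2.1.subset hP)⟩
    · have h5 := hss k _ _ hBA
      rw [(hcl A hA1).smul_eq hk] at h5
      exact mem_filter.mpr ⟨smul_mem_trc h.closed h.sub (gen_mono hAT.subset hk) hB,
        ⟨A, hA1, h5⟩, fun hP => hPA (h5.subset hP)⟩
    · intro hC
      exact (mem_filter.mp hC).2.2 (hkQ ▸ Finset.smul_mem_smul_finset hQ)
  obtain ⟨c, hc⟩ := h3
  have h6 : 2 ≤ c := by
    by_contra hlt
    have : p * c ≤ p * 1 := Nat.mul_le_mul_left p (by omega)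
    omega
  calc 2 * p ≤ p * c := by rw [mul_comm]; exact Nat.mul_le_mul_left p h6
    _ = _ := hc.symm
    _ ≤ _ := card_le_card fun C hC => by
      rw [mem_filter] at hC ⊢
      exact ⟨hC.1, hC.2.1⟩

theorem Inv.antichain {T₀ A₀ T : Finset (Sylow p G)} {i : ℕ} (hT₀ : Closed T₀) (hA : Closed A₀)
    (hAT : A₀ ⊆ T₀) (ih : Below p G #T₀) (h : Inv T₀ A₀ T i) (hi : i + 2 ≤ p)
    {B A : Finset (Sylow p G)} (hB : B ∈ trc T₀ A₀ T) (hA1 : A ∈ trc T₀ A₀ T) (hBA : B ⊆ A) :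
    B = A := by
  by_contra hne
  by_cases hT : T = T₀
  · subst hT
    have key : ∀ C ∈ trc T A₀ T, #C = #A₀ := by
      intro C hC
      obtain ⟨-, k, hk, rfl⟩ := mem_trc.mp hC
      rw [Finset.inter_eq_left.mpr, Finset.card_smul_finset]
      rw [← hT₀.smul_eq hk]
      exact Finset.smul_finset_subset_smul_finset_iff.mpr hAT
    exact hne (Finset.eq_of_subset_of_card_le hBA (by rw [key A hA1, key B hB]))
  have hlt : #T < #T₀ := card_lt_card (Finset.ssubset_iff_subset_ne.mpr ⟨h.sub, hT⟩)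
  have hcl : ∀ C ∈ trc T₀ A₀ T, Closed C := fun C hC => closed_of_mem_trc hA h.closed hC
  have h1 := card_nonmax hA h hB hA1 (Finset.ssubset_iff_subset_ne.mpr ⟨hBA, hne⟩)
  have hp2 : (2 : ℤ) ≤ p := by exact_mod_cast hp.out.two_le
  have h0 : ∀ C ∈ trc T₀ A₀ T, 0 ≤ dlt T C := fun C hC => by
    rw [dlt_of_subset (ssubset_of_mem_trc hC).subset]
    have := ih T C h.closed hlt (hcl C hC) (ssubset_of_mem_trc hC)
    linarith
  have h2 : ∀ C ∈ {C ∈ trc T₀ A₀ T | ∃ E ∈ trc T₀ A₀ T, C ⊂ E},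
      (p : ℤ) * (p - 1) * #T ≤ (2 * p - 1) * dlt T C := by
    intro C hC
    obtain ⟨hC1, E, hE, hCE⟩ := mem_filter.mp hC
    have a1 := ih T E h.closed hlt (hcl E hE) (ssubset_of_mem_trc hE)
    have a2 := ih E C (hcl E hE) ((card_lt_card (ssubset_of_mem_trc hE)).trans hlt) (hcl C hC1) hCE
    rw [dlt_of_subset (ssubset_of_mem_trc hC1).subset]
    nlinarith
  have h3 := Finset.card_nsmul_le_sum _ _ _ h2
  rw [← Finset.mul_sum, nsmul_eq_mul] at h3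
  have h4 : ∑ C ∈ {C ∈ trc T₀ A₀ T | ∃ E ∈ trc T₀ A₀ T, C ⊂ E}, dlt T C ≤
      ∑ C ∈ trc T₀ A₀ T, dlt T C :=
    Finset.sum_le_sum_of_subset_of_nonneg (filter_subset _ _) fun C hC _ => h0 C hC
  have h5 := h.le
  have h6 : (0 : ℤ) < #T := by exact_mod_cast h.ne.card_pos
  have h7 : (2 * p : ℤ) ≤ #{C ∈ trc T₀ A₀ T | ∃ E ∈ trc T₀ A₀ T, C ⊂ E} := by exact_mod_cast h1
  have h8 : (i : ℤ) + 2 ≤ p := by exact_mod_cast hi
  have h9 : (2 * p : ℤ) * (p * (p - 1) * #T) ≤ (2 * p - 1) * (p * ((i : ℤ) - 1) * #T) := by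
    refine le_trans (mul_le_mul_of_nonneg_right h7 ?_) (h3.trans ?_)
    · have : (0 : ℤ) ≤ p - 1 := by linarith
      positivity
    · exact mul_le_mul_of_nonneg_left (h4.trans h5) (by linarith)
  have h10 : (0 : ℤ) < p * #T := by positivity
  have h11 : (p * #T : ℤ) * (2 * p * (p - 1)) ≤ (p * #T) * ((2 * p - 1) * ((i : ℤ) - 1)) := by
    linarith
  have h12 := le_of_mul_le_mul_left h11 h10
  nlinarith

theorem Inv.step {T₀ A₀ T : Finset (Sylow p G)} {i : ℕ} (hT₀ : Closed T₀) (hA : Closed A₀)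
    (hAT : A₀ ⊆ T₀) (ih : Below p G #T₀) (h : Inv T₀ A₀ T i) (hi : i + 2 ≤ p)
    {k : G} (hk : k ∈ gen T₀) : Inv T₀ A₀ ((k • A₀) ∩ T) (i + 1) := by
  have hp2 : (2 : ℤ) ≤ p := by exact_mod_cast hp.out.two_le
  have h8 : (i : ℤ) + 2 ≤ p := by exact_mod_cast hi
  by_cases hT : (k • A₀) ∩ T = T
  · rw [hT]
    refine ⟨h.closed, h.sub, h.ne, h.emp, h.le.trans ?_⟩
    push_cast
    have : (0 : ℤ) ≤ p * #T := by positivity
    nlinarith
  set T' := (k • A₀) ∩ T with hT'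
  have hmem : T' ∈ trc T₀ A₀ T := mem_trc.mpr ⟨hT, k, hk, rfl⟩
  have hss := ssubset_of_mem_trc hmem
  have hcl' : Closed T' := closed_of_mem_trc hA h.closed hmem
  have hne : ∀ C ∈ trc T₀ A₀ T, C.Nonempty := fun C hC =>
    Finset.nonempty_iff_ne_empty.mpr fun e => h.emp (e ▸ hC)
  have hcl : ∀ C ∈ trc T₀ A₀ T, Closed C := fun C hC => closed_of_mem_trc hA h.closed hC
  obtain ⟨P, hP⟩ := hne T' hmem
  have hlt : #T' < #T₀ := (card_lt_card hss).trans_le (card_le_card h.sub)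
  have e1 := card_mul_dfc (hss.subset hP) (𝓖 := trc T₀ A₀ T)
    fun k hk A hA => smul_mem_trc h.closed h.sub hk hA
  have e2 := card_mul_dfc hP (𝓖 := trc T₀ A₀ T)
    fun k hk A hA => smul_mem_trc h.closed h.sub (gen_mono hss.subset hk) hA
  have hT0 : (0 : ℤ) < #T := by exact_mod_cast h.ne.card_pos
  have hT1 : (0 : ℤ) < #T' := by exact_mod_cast card_pos.mpr ⟨P, hP⟩
  have hD : dfc P (trc T₀ A₀ T) ≤ p * ((i : ℤ) - 1) := by
    have := h.le
    rw [← e1, mul_comm _ (#T : ℤ)] at this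
    exact le_of_mul_le_mul_left this hT0
  have himg : ((trc T₀ A₀ T).erase T').image (· ∩ T') = trc T₀ A₀ T' := by
    ext C
    rw [mem_image, mem_trc]
    constructor
    · rintro ⟨B, hB, rfl⟩
      rw [mem_erase] at hB
      refine ⟨fun e => hB.1 (h.antichain hT₀ hA hAT ih hi hmem hB.2
        (Finset.inter_eq_right.mp e)).symm, ?_⟩
      obtain ⟨-, l, hl, rfl⟩ := mem_trc.mp hB.2
      exact ⟨l, hl, by rw [inter_assoc, Finset.inter_eq_right.mpr hss.subset]⟩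
    · rintro ⟨h1, l, hl, rfl⟩
      refine ⟨(l • A₀) ∩ T, mem_erase.mpr ⟨fun e => h1 ?_, mem_trc.mpr ⟨fun e => h1 ?_, l, hl, rfl⟩⟩,
        by rw [inter_assoc, Finset.inter_eq_right.mpr hss.subset]⟩
      · exact Finset.inter_eq_right.mpr (e ▸ inter_subset_left)
      · exact Finset.inter_eq_right.mpr (hss.subset.trans (Finset.inter_eq_right.mp e))
  have h0 : ∀ C ∈ trc T₀ A₀ T', 0 ≤ dlt T' C := fun C hC => by
    rw [dlt_of_subset (ssubset_of_mem_trc hC).subset]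
    have := ih T' C hcl' hlt (closed_of_mem_trc hA hcl' hC) (ssubset_of_mem_trc hC)
    linarith
  have hd : ∀ B : Finset (Sylow p G), dlt T' (B ∩ T') = dlt T' B := fun B => by
    rw [dlt, dlt, inter_comm B, ← inter_assoc, inter_self]
  have e3 : ∑ B ∈ (trc T₀ A₀ T).erase T', dlt T' B ≤ p * (i : ℤ) * #T' := by
    have a1 := Finset.add_sum_erase _ (dlt T') hmem
    rw [← e2, dlt_of_subset (subset_refl _)] at a1
    nlinarith
  refine ⟨hcl', hss.subset.trans h.sub, ⟨P, hP⟩, fun hemp => ?_, ?_⟩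
  · have hZ : p ∣ #{B ∈ trc T₀ A₀ T | B ∩ T' = ∅} := by
      refine dvd_card P (fun y hy B hB => ?_) fun B hB => ?_
      · rw [mem_filter] at hB ⊢
        refine ⟨smul_mem_trc h.closed h.sub (le_gen (hss.subset hP) hy) hB.1, ?_⟩
        rw [← hcl'.smul_eq (le_gen hP hy), ← Finset.smul_finset_inter, hB.2,
          Finset.smul_finset_empty]
      · rw [mem_filter] at hB
        exact ⟨hcl B hB.1, hne B hB.1, fun hPB =>
          Finset.notMem_empty P (hB.2 ▸ mem_inter.mpr ⟨hPB, hP⟩)⟩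
    rw [← himg, mem_image] at hemp
    obtain ⟨B, hB, hBe⟩ := hemp
    have hZ1 : p ≤ #{B ∈ trc T₀ A₀ T | B ∩ T' = ∅} :=
      Nat.le_of_dvd (card_pos.mpr ⟨B, mem_filter.mpr ⟨mem_of_mem_erase hB, hBe⟩⟩) hZ
    have hZ2 : (p : ℤ) ≤ #{B ∈ trc T₀ A₀ T | B ∩ T' = ∅} := by exact_mod_cast hZ1
    have a1 : ∑ C ∈ {B ∈ trc T₀ A₀ T | B ∩ T' = ∅}, dlt T' C ≤
        ∑ B ∈ (trc T₀ A₀ T).erase T', dlt T' B := by
      refine Finset.sum_le_sum_of_subset_of_nonneg (fun C hC => ?_) fun C hC _ => ?_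
      · rw [mem_filter] at hC
        refine mem_erase.mpr ⟨fun e => ?_, hC.1⟩
        rw [e, inter_self] at hC
        exact Finset.notMem_empty P (hC.2 ▸ hP)
      · rw [← hd]
        exact h0 _ (himg ▸ mem_image_of_mem _ hC)
    have a2 : ∑ C ∈ {B ∈ trc T₀ A₀ T | B ∩ T' = ∅}, dlt T' C =
        #{B ∈ trc T₀ A₀ T | B ∩ T' = ∅} * (((p : ℤ) - 1) * #T') := by
      rw [← nsmul_eq_mul, ← Finset.sum_const]
      refine Finset.sum_congr rfl fun C hC => ?_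
      rw [dlt, inter_comm, (mem_filter.mp hC).2]
      simp
    have a3 : (p : ℤ) * ((p - 1) * #T') ≤ p * (i : ℤ) * #T' := by
      refine le_trans (mul_le_mul_of_nonneg_right hZ2 ?_) (a2 ▸ a1.trans e3)
      have : (0 : ℤ) ≤ p - 1 := by linarith
      positivity
    have a4 : (0 : ℤ) < p * #T' := by positivity
    nlinarith
  · rw [← himg]
    refine (Finset.sum_image_le_of_nonneg fun C hC => h0 C (himg ▸ hC)).trans ?_
    simp only [hd]
    push_cast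
    linarith

theorem inv_zero {T₀ A₀ : Finset (Sylow p G)} (hT₀ : Closed T₀) (hA : Closed A₀)
    (hAT : A₀ ⊂ T₀) (hlt : ((p : ℤ) - 1) * #T₀ < (2 * p - 1) * #A₀) : Inv T₀ A₀ T₀ 0 := by
  have hp2 : (2 : ℤ) ≤ p := by exact_mod_cast hp.out.two_le
  have key : ∀ C ∈ trc T₀ A₀ T₀, #C = #A₀ := by
    intro C hC
    obtain ⟨-, k, hk, rfl⟩ := mem_trc.mp hC
    rw [Finset.inter_eq_left.mpr, Finset.card_smul_finset]
    rw [← hT₀.smul_eq hk]
    exact Finset.smul_finset_subset_smul_finset_iff.mpr hAT.subset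
  have hA0 : 0 < #A₀ := by
    rcases Nat.eq_zero_or_pos #A₀ with e | e
    · rw [e] at hlt
      have : (0 : ℤ) ≤ (p - 1) * #T₀ := mul_nonneg (by linarith) (by positivity)
      simp only [Nat.cast_zero, mul_zero] at hlt
      linarith
    · exact e
  have hne : ∀ C ∈ trc T₀ A₀ T₀, C.Nonempty := fun C hC => card_pos.mp (key C hC ▸ hA0)
  obtain ⟨P, hPT, -⟩ := Finset.exists_of_ssubset hAT
  have hT0 : (0 : ℤ) < #T₀ := by exact_mod_cast card_pos.mpr ⟨P, hPT⟩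
  refine ⟨hT₀, subset_refl _, ⟨P, hPT⟩, fun e => Finset.not_nonempty_empty (hne _ e), ?_⟩
  have e1 := card_mul_dfc hPT (𝓖 := trc T₀ A₀ T₀)
    fun k hk A hA => smul_mem_trc hT₀ (subset_refl _) hk hA
  have hmem : A₀ ∈ trc T₀ A₀ T₀ := mem_trc.mpr ⟨hAT.ne, 1, one_mem _, by
    rw [one_smul, Finset.inter_eq_left.mpr hAT.subset]⟩
  have h1 : ∑ B ∈ trc T₀ A₀ T₀, dlt T₀ B < 0 := by
    refine Finset.sum_neg (fun B hB => ?_) ⟨A₀, hmem⟩
    rw [dlt_of_subset (ssubset_of_mem_trc hB).subset, key B hB]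
    linarith
  have h2 : p ∣ #{B ∈ trc T₀ A₀ T₀ | P ∉ B} := by
    refine dvd_card P (fun y hy B hB => ?_) fun B hB => ?_
    · rw [mem_filter] at hB ⊢
      exact ⟨smul_mem_trc hT₀ (subset_refl _) (le_gen hPT hy) hB.1, notMem_smul hy hB.2⟩
    · rw [mem_filter] at hB
      exact ⟨closed_of_mem_trc hA hT₀ hB.1, hne B hB.1, hB.2⟩
  obtain ⟨c, hc⟩ := h2
  have h3 := Finset.card_filter_add_card_filter_not (s := trc T₀ A₀ T₀) (fun B => P ∈ B)
  rw [hc] at h3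
  have h4 : dfc P (trc T₀ A₀ T₀) = p * ((p - 1) * c - #{B ∈ trc T₀ A₀ T₀ | P ∈ B}) := by
    rw [dfc, ← h3]
    push_cast
    ring
  rw [← e1] at h1 ⊢
  rw [h4] at h1 ⊢
  have h5 : ((p : ℤ) - 1) * c - #{B ∈ trc T₀ A₀ T₀ | P ∈ B} < 0 := by
    by_contra h6
    have : (0 : ℤ) ≤ #T₀ * (p * ((p - 1) * c - #{B ∈ trc T₀ A₀ T₀ | P ∈ B})) :=
      mul_nonneg hT0.le (mul_nonneg (by linarith) (not_lt.mp h6))
    linarith
  have h6 : (0 : ℤ) < #T₀ * p := by positivity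
  push_cast
  nlinarith

theorem exists_inv {T₀ A₀ : Finset (Sylow p G)} (hT₀ : Closed T₀) (hA : Closed A₀)
    (hAT : A₀ ⊆ T₀) (ih : Below p G #T₀) (h0 : Inv T₀ A₀ T₀ 0) {z : G} (hz : z ∈ gen T₀) (j : ℕ)
    (hj : j + 1 ≤ p) :
    ∃ T, Inv T₀ A₀ T j ∧ ∀ Q, Q ∈ T ↔ Q ∈ T₀ ∧ ∀ i < j, Q ∈ z ^ i • A₀ := by
  induction j with
  | zero => exact ⟨T₀, h0, by simp⟩
  | succ j ihj =>
    obtain ⟨T, hT, hQ⟩ := ihj (by omega)
    refine ⟨_, hT.step hT₀ hA hAT ih hj (pow_mem hz j), fun Q => ?_⟩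
    rw [mem_inter, hQ, Nat.forall_lt_succ_right]
    tauto

theorem below_succ {T₀ A₀ : Finset (Sylow p G)} (hT₀ : Closed T₀) (hA : Closed A₀)
    (hAT : A₀ ⊂ T₀) (ih : Below p G #T₀) : (2 * (p : ℤ) - 1) * #A₀ ≤ (p - 1) * #T₀ := by
  by_contra hlt
  have h0 := inv_zero hT₀ hA hAT (not_le.mp hlt)
  have hAne : A₀.Nonempty := Finset.nonempty_iff_ne_empty.mpr fun e => h0.emp
    (mem_trc.mpr ⟨e ▸ hAT.ne, 1, one_mem _, by rw [e]; simp⟩)
  obtain ⟨P, hPT, hPA⟩ := Finset.exists_of_ssubset hAT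
  obtain ⟨y, hy, hyA⟩ : ∃ y ∈ (P : Subgroup G), y • A₀ ≠ A₀ := by
    by_contra hc
    push Not at hc
    exact hPA (hA.mem_of_smul_eq hAne hc)
  have hex : ∃ n : ℕ, y ^ p ^ n • A₀ = A₀ := by
    obtain ⟨n, hn⟩ := P.isPGroup' ⟨y, hy⟩
    refine ⟨n, ?_⟩
    have : y ^ p ^ n = 1 := congrArg Subtype.val hn
    rw [this, one_smul]
  obtain ⟨m, hm⟩ : ∃ m, Nat.find hex = m + 1 := Nat.exists_eq_succ_of_ne_zero fun e => hyA (by
    have := Nat.find_spec hex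
    rwa [e, pow_zero, pow_one] at this)
  have hz1 : y ^ p ^ m • A₀ ≠ A₀ := Nat.find_min hex (by omega)
  have hz2 : (y ^ p ^ m) ^ p • A₀ = A₀ := by
    have := Nat.find_spec hex
    rwa [hm, pow_succ, pow_mul] at this
  set z := y ^ p ^ m with hzdef
  have hzP : z ∈ (P : Subgroup G) := pow_mem hy _
  have hz : z ∈ gen T₀ := le_gen hPT hzP
  obtain ⟨q, hq⟩ : ∃ q, p = q + 1 := Nat.exists_eq_succ_of_ne_zero hp.out.ne_zero
  obtain ⟨T, hT, hQ⟩ := exists_inv hT₀ hA hAT.subset ih h0 hz q hq.ge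
  have hU : ∀ Q, Q ∈ (z ^ q • A₀) ∩ T ↔ Q ∈ T₀ ∧ ∀ i < q + 1, Q ∈ z ^ i • A₀ := fun Q => by
    rw [mem_inter, hQ, Nat.forall_lt_succ_right]
    tauto
  have hUne : ((z ^ q • A₀) ∩ T).Nonempty := by
    by_cases e : (z ^ q • A₀) ∩ T = T
    · rw [e]
      exact hT.ne
    · exact Finset.nonempty_iff_ne_empty.mpr fun e' => hT.emp
        (e' ▸ mem_trc.mpr ⟨e, _, pow_mem hz q, rfl⟩)
  have hUz : z • ((z ^ q • A₀) ∩ T) = (z ^ q • A₀) ∩ T := by
    refine Finset.eq_of_subset_of_card_le (fun Q hQ' => ?_) (Finset.card_smul_finset _ _).ge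
    obtain ⟨R, hR, rfl⟩ := Finset.mem_smul_finset.mp hQ'
    rw [hU] at hR ⊢
    refine ⟨hT₀.smul_eq hz ▸ Finset.smul_mem_smul_finset hR.1, fun i hi => ?_⟩
    cases i with
    | zero =>
      rw [pow_zero, one_smul, ← hz2, show z ^ p = z * z ^ q by rw [← pow_succ', ← hq], mul_smul]
      exact Finset.smul_mem_smul_finset (hR.2 q (by omega))
    | succ i =>
      rw [pow_succ', mul_smul]
      exact Finset.smul_mem_smul_finset (hR.2 i (by omega))
  obtain ⟨Q, hQU, hzQ⟩ := ((hA.smul (z ^ q)).inter hT.closed).exists_le hUne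
    (P.isPGroup'.to_le (Subgroup.zpowers_le.mpr hzP))
    (fun w hw => (Subgroup.zpowers_le (H := MulAction.stabilizer G _)).mpr hUz hw)
  have hQA : Q ∈ A₀ := by
    have := ((hU Q).mp hQU).2 0 (Nat.succ_pos q)
    rwa [pow_zero, one_smul] at this
  exact hz1 (hA.smul_eq (le_gen hQA (hzQ (Subgroup.mem_zpowers z))))

theorem below (n : ℕ) : Below p G n := by
  induction n with
  | zero => exact fun T A _ h => absurd h (Nat.not_lt_zero _)
  | succ n ih =>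
    intro T A hT hlt hA hAT
    exact below_succ hT hA hAT fun T' A' hT' hlt' => ih T' A' hT' (by omega)

theorem card_syl {H : Subgroup G} {P : Sylow p G} (hP : (P : Subgroup G) ≤ H) :
    Nat.card (Sylow p H) = #(syl p H) := by
  rw [← Nat.card_eq_finsetCard]
  symm
  refine Nat.card_eq_of_bijective (fun Q : syl p H => Q.1.subtype (mem_syl.mp Q.2)) ⟨?_, ?_⟩
  · intro Q R h
    exact Subtype.ext (Sylow.subtype_injective h)
  · intro R
    obtain ⟨k, hk⟩ := MulAction.exists_smul_eq H (P.subtype hP) R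
    rw [Sylow.smul_subtype] at hk
    exact ⟨⟨k • P, mem_syl.mpr (Sylow.smul_le hP k)⟩, hk⟩

theorem card_sylow_le {H : Subgroup G} {P Q : Sylow p G} (hP : (P : Subgroup G) ≤ H)
    (hQ : ¬ (Q : Subgroup G) ≤ H) :
    (2 * p - 1) * Nat.card (Sylow p H) ≤ (p - 1) * Nat.card (Sylow p G) := by
  have h1 := below (p := p) (G := G) (#(syl p (⊤ : Subgroup G)) + 1) (syl p ⊤) (syl p H) ⟨_, rfl⟩
    (Nat.lt_succ_self _) ⟨_, rfl⟩ (Finset.ssubset_iff_of_subset (fun _ _ => mem_syl.mpr le_top)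
      |>.mpr ⟨Q, mem_syl.mpr le_top, fun h => hQ (mem_syl.mp h)⟩)
  have h2 : #(syl p (⊤ : Subgroup G)) = Nat.card (Sylow p G) := by
    rw [Nat.card_eq_fintype_card, ← Finset.card_univ]
    congr 1
    ext R
    simp [mem_syl]
  rw [h2, ← card_syl hP] at h1
  have h3 := hp.out.pos
  zify [show 1 ≤ 2 * p by omega, show 1 ≤ p from h3]
  exact h1

end Cfsg.Agent.SylFix
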